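import Cfsg.Agent.S0618
import Cfsg.Agent.S0609
import Cfsg.Agent.Classical.SLCard
import Cfsg.Agent.BG.Base6

/-! Hall `{p, q}`-subgroups of `p`-solvable groups and Thompson's lemma on automizers of `p`-subgroups. -/
set_option autoImplicit false
namespace Cfsg.Agent.Loc
open Subgroup Cfsg
open scoped commutatorElement

universe u
variable {p q : ℕ} [hp : Fact p.Prime] [hq : Fact q.Prime]

theorem exists_hall_pq (n : ℕ) : ∀ (G : Type u) [Group G] [Finite G], Nat.card G = n → IsPSolvable p G →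
    ∃ L : Subgroup G, Solv.IsPiNum {p, q} (Nat.card L) ∧ Solv.IsPiNum ({p, q} : Set ℕ)ᶜ L.index := by
  induction n using Nat.strong_induction_on with
  | _ n ih =>
  intro G _ _ hn hs
  by_cases ex : ∃ K : Subgroup G, K ≠ ⊤ ∧ Solv.IsPiNum ({p, q} : Set ℕ)ᶜ K.index
  · obtain ⟨K, k1, k2⟩ := ex
    obtain ⟨L, l1, l2⟩ := ih _ (hn ▸ (BG.proper_card k1.lt_top).trans_eq card_top) K rfl (Solv.isPSolvable_subgroup hs K)
    exact ⟨L.map K.subtype, by rwa [card_map_subtype], by rw [index_map_subtype]; exact l2.mul k2⟩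
  push Not at ex
  replace ex : ∀ K : Subgroup G, Solv.IsPiNum ({p, q} : Set ℕ)ᶜ K.index → K = ⊤ := fun K h => by_contra fun k => ex K k h
  refine ⟨⊤, ?_, by rw [index_top]; exact .one⟩
  have qu : ∀ (M : Subgroup G) [M.Normal], M ≠ ⊥ → Solv.IsPiNum {p, q} M.index := fun M _ h => by
    obtain ⟨L, l1, l2⟩ := ih _ (hn ▸ Solv.card_quotient_lt h) (G ⧸ M) rfl (Solv.isPSolvable_quotient hs M)
    have := ex (L.comap (QuotientGroup.mk' M)) (by rwa [index_comap_of_surjective _ (QuotientGroup.mk'_surjective M)])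
    rw [← comap_top (QuotientGroup.mk' M), (comap_injective (QuotientGroup.mk'_surjective M)).eq_iff] at this
    rwa [this, card_top] at l1
  have fin : ∀ (M : Subgroup G) [M.Normal], M ≠ ⊥ → Solv.IsPiNum {p, q} (Nat.card M) →
      Solv.IsPiNum {p, q} (Nat.card (⊤ : Subgroup G)) := fun M _ h h' => by
    rw [card_top, ← M.card_mul_index]; exact h'.mul (qu M h)
  rcases subsingleton_or_nontrivial G with h | h
  · rw [card_top, Nat.card_of_subsingleton (1 : G)]; exact .one
  rcases (Solv.isPiSep_singleton_iff.2 hs).piCore_ne_bot_or with h | h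
  · exact fin _ h ((Solv.isPiNum_card_piCore _ _).mono (by simp))
  set M := piCore ({p} : Set ℕ)ᶜ G
  have hM := Solv.isPiNum_card_piCore ({p} : Set ℕ)ᶜ G
  obtain ⟨Q, hQ⟩ := exists_sylIn q M
  have i : Solv.IsPiNum ({p, q} : Set ℕ)ᶜ (Q.relIndex M) := fun r hr hd k => k.elim
    (hM r hr (hd.trans (relIndex_dvd_card _ _))) fun e => hQ.not_dvd_relIndex (e ▸ hd)
  have f := hQ.frattini_sup le_top le_normalizer_of_normal
  rw [top_inf_eq] at f
  have : Q.Normal := normalizer_eq_top_iff.1 (ex _ (by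
    rw [Solv.index_eq_relIndex_of_sup_eq_top le_normalizer_of_normal f]
    exact i.of_dvd (relIndex_dvd_of_le_left _ le_normalizer)))
  by_cases e : Q = ⊥
  · rw [e, relIndex_bot_left] at i
    obtain ⟨K, hK⟩ := exists_right_complement'_of_coprime (N := M) (i.coprime' (qu M h))
    have := ex K (hK.index_eq_card ▸ i)
    exact absurd (by simpa [this] using hK.disjoint) h
  · exact fin Q e (Solv.isPiNum_card_of_isPGroup hQ.pg (by simp))

variable {G : Type u} [Group G] [Finite G] {A B H K L P X Y Z : Subgroup G}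

omit [Finite G] in
theorem index_eq_relIndex_of_mul (h : ∀ g, ∃ a ∈ A, ∃ y ∈ Y, g = a * y) : A.index = A.relIndex Y := by
  rw [← relIndex_top_right]
  refine (Nat.card_eq_of_bijective (quotientSubgroupOfEmbeddingOfLE A (le_top : Y ≤ ⊤))
    ⟨Function.Embedding.injective _, fun x => ?_⟩).symm
  obtain ⟨⟨g, -⟩, rfl⟩ := QuotientGroup.mk_surjective x
  obtain ⟨a, ha, y, hy, e⟩ := h g⁻¹
  refine ⟨QuotientGroup.mk ⟨y⁻¹, inv_mem hy⟩, QuotientGroup.eq.2 ?_⟩
  show y⁻¹⁻¹ * g ∈ A
  rw [inv_inv, ← inv_inv g, e]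
  simpa using ha

/-- some `q`-subgroup of `X` does not centralise `H` -/
def Act (q : ℕ) (H X : Subgroup G) : Prop := ∃ Q ≤ X, IsPGroup q Q ∧ ¬ Q ≤ centralizer (H : Set G)

omit hp in
theorem act_of_dvd (h : q ∣ (centralizer (H : Set G)).relIndex X) : Act q H X := by
  obtain ⟨Q, hQ⟩ := exists_sylIn q X
  exact ⟨Q, hQ.le, hQ.pg, fun l => hQ.not_dvd_relIndex (h.trans (relIndex_dvd_of_le_left _ l))⟩

omit hp in
theorem Act.dvd (h : Act q H X) (hX : X ≤ normalizer (H : Set G)) : q ∣ (centralizer (H : Set G)).relIndex X := by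
  obtain ⟨Q, l, g, n⟩ := h
  obtain ⟨k, hk⟩ := g.exists_card_eq
  obtain ⟨j, -, e⟩ := (Nat.dvd_prime_pow hq.out).1 (hk ▸ relIndex_dvd_card (centralizer (H : Set G)) Q)
  refine Dvd.dvd.trans ?_ (BG.relIndex_dvd_of_norm (le_normalizer_centralizer hX) l)
  rw [e]
  exact dvd_pow_self _ fun j0 => n (relIndex_eq_one.1 (by rw [e, j0, pow_zero]))

omit hp hq [Finite G] in
theorem Act.mono (h : Act q H X) (h1 : H ≤ K) (h2 : X ≤ Y) : Act q K Y :=
  h.imp fun _ k => ⟨k.1.trans h2, k.2.1, fun e => k.2.2 (e.trans (centralizer_anti h1))⟩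

theorem tf_pq (h23 : ¬ ((p = 2 ∧ q = 3) ∨ (p = 3 ∧ q = 2))) (hs : IsPSolvable p G)
    (hG : Solv.IsPiNum {p, q} (Nat.card G)) : IsThompsonFactorizable p G := by
  by_contra h
  obtain ⟨h1, E, -, -, -, _, ⟨e⟩⟩ := S0618.result (Solv.isPSolvable_quotient hs _)
    (Solv.pPrimeCore_quotient_pPrimeCore p G) (S0609.result.not.1 h)
  have d := ((Nat.card_congr e.toEquiv).symm.dvd.trans ((card_quotient_dvd_card _).trans
    (card_subgroup_dvd_card E))).trans (card_quotient_dvd_card _)
  rw [Classical.card_SL2, Nat.card_zmod] at d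
  have a := hG 2 Nat.prime_two (Dvd.dvd.trans (by rcases h1 with rfl | rfl <;> norm_num) d)
  have b := hG 3 Nat.prime_three (Dvd.dvd.trans (by rcases h1 with rfl | rfl <;> norm_num) d)
  simp only [Set.mem_insert_iff, Set.mem_singleton_iff] at a b
  omega

theorem act_or (h23 : ¬ ((p = 2 ∧ q = 3) ∨ (p = 3 ∧ q = 2))) (hs : IsPSolvable p L) (hP : SylIn p P L) (hH : H ≤ P)
    (hn : L ≤ normalizer (H : Set G)) (ha : Act q H L) :
    Act q H (L ⊓ centralizer (omegaOne p (P ⊓ centralizer (P : Set G)) : Set G)) ∨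
      Act q H (L ⊓ normalizer (thompsonSubgroupOf p P : Set G)) := by
  obtain ⟨M, m1, m2⟩ := exists_hall_pq (p := p) (q := q) _ L rfl hs
  obtain ⟨M, l1, l2, m1, m2⟩ : ∃ M, P ≤ M ∧ M ≤ L ∧ Solv.IsPiNum {p, q} (Nat.card M) ∧ ¬ q ∣ M.relIndex L := by
    obtain ⟨T, hT⟩ := exists_sylIn p (M.map L.subtype)
    have e := BG.relIndex_map_subtype M
    obtain ⟨g, hg, rfl⟩ := (sylIn_of_not_dvd_relIndex (hT.le.trans (map_subtype_le _)) hT.pg (by
      rw [← relIndex_mul_relIndex _ _ _ hT.le (map_subtype_le _), e, hp.out.dvd_mul]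
      exact not_or.2 ⟨hT.not_dvd_relIndex, fun k => m2 p hp.out k (by simp)⟩)).exists_conj hP
    exact ⟨cj g (M.map L.subtype), cj_mono g hT.le, cj_le_of_mem hg (map_subtype_le _), by
      rwa [card_cj, card_map_subtype], by
      rw [← relIndex_cj g⁻¹, cj_inv_cj, cj_eq_of_mem (inv_mem hg), e]
      exact fun k => m2 q hq.out k (by simp)⟩
  have hn' := l2.trans hn
  have a : q ∣ (centralizer (H : Set G)).relIndex M := by
    have := (ha.dvd hn).trans (relIndex_dvd_of_le_left L (inf_le_left : _ ⊓ M ≤ _))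
    rw [← relIndex_mul_relIndex _ _ _ inf_le_right l2, hq.out.dvd_mul, inf_relIndex_right] at this
    exact this.resolve_right m2
  have tf := tf_pq h23 ((Solv.isPiSep_singleton_iff).1 ((Solv.isPiSep_singleton_iff.2 hs).of_le l2)) m1
    (hP.mono l1 l2).toSylow
  rw [SylIn.coe_toSylow] at tf
  set C := (centralizer (H : Set G)).subgroupOf M
  set U := centralizer ((omegaOne p (P.subgroupOf M ⊓ centralizer (P.subgroupOf M : Set M)) : Subgroup M) : Set M)
  set V := normalizer ((thompsonSubgroupOf p (P.subgroupOf M) : Subgroup M) : Set M)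
  have : C.Normal := normal_subgroupOf_of_le_normalizer (le_normalizer_centralizer hn')
  have lO : pPrimeCore p M ≤ C := by
    have := (normal_subgroupOf_iff_le_normalizer (hH.trans l1)).2 hn'
    exact (Solv.pPrimeCore_le_centralizer_pCore.trans (centralizer_anti (le_pCore this
      (isPGroup_subgroupOf (hP.pg.to_le hH) _)))).trans (subgroupOf_centralizer (hH.trans l1)).ge
  have e : (U ⊔ C).index = (U ⊔ C).relIndex V := index_eq_relIndex_of_mul fun g => by
    obtain ⟨x, hx, c, hc, n, hn, e⟩ := tf g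
    exact ⟨x * c, mul_mem (mem_sup_right (lO hx)) (mem_sup_left hc), n, hn, e⟩
  have d : q ∣ C.relIndex U ∨ q ∣ C.relIndex V := by
    rw [relIndex, ← relIndex_mul_index (le_sup_right : C ≤ U ⊔ C), relIndex_sup_right, e, hq.out.dvd_mul] at a
    exact a.imp_right (·.trans (relIndex_dvd_of_le_left _ le_sup_right))
  have t : ∀ W : Subgroup M, q ∣ C.relIndex W → Act q H (W.map M.subtype) := fun W h => act_of_dvd (by
    rwa [← relIndex_subgroupOf (map_subtype_le W), subgroupOf_map_subtype'])
  have i := M.subtype_injective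
  refine d.imp (fun h => (t _ h).mono le_rfl ?_) fun h => (t _ h).mono le_rfl ?_
  · rw [map_subtype_centralizer, map_omegaOne_of_injective i, map_inf _ _ _ i, map_subtype_centralizer,
      map_subgroupOf_eq_of_le l1, ← inf_assoc, inf_right_comm, inf_eq_left.2 l1, inf_comm]
    exact inf_le_inf_right _ l2
  · rw [map_subtype_normalizer, PLocal.map_J (PLocal.inf_ker_of_injective i _), map_subgroupOf_eq_of_le l1, inf_comm]
    exact inf_le_inf_right _ l2

/-- all automizers of `p`-subgroups are `p`-solvable -/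
def AutS (p : ℕ) (G : Type u) [Group G] : Prop := ∀ H : Subgroup G, IsPGroup p H →
  IsPSolvable p (normalizer (H : Set G) ⧸ (centralizer (H : Set G)).subgroupOf (normalizer (H : Set G)))

theorem AutS.use (h : AutS p G) (hH : IsPGroup p H) {X Y : Type*} [Group X] [Group Y] (f : X →* G) (φ : X →* Y)
    (hφ : Function.Surjective φ) (h1 : ∀ x, f x ∈ normalizer (H : Set G))
    (h2 : ∀ x, f x ∈ centralizer (H : Set G) → φ x = 1) : IsPSolvable p Y := by
  set ψ := (QuotientGroup.mk' ((centralizer (H : Set G)).subgroupOf (normalizer (H : Set G)))).comp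
    (f.codRestrict _ h1)
  refine Solv.isPSolvable_of_surjective (Solv.isPSolvable_subgroup (h H hH) ψ.range)
    (f := ψ.rangeRestrict.liftOfSurjective ψ.rangeRestrict_surjective ⟨φ, fun x hx => h2 x
      ((QuotientGroup.eq_one_iff (f.codRestrict _ h1 x)).1 (congrArg Subtype.val hx))⟩) fun y => ?_
  obtain ⟨x, rfl⟩ := hφ y
  exact ⟨ψ.rangeRestrict x, MonoidHom.liftOfRightInverse_comp_apply _ _ _ _ _⟩

theorem AutS.quot (h : AutS p G) (D : Subgroup G) (Z : Subgroup D) [Z.Normal] (hZ : IsPGroup p Z) :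
    AutS p (D ⧸ Z) := fun K hK => by
  have fs := QuotientGroup.mk'_surjective Z
  refine h.use (H := (K.comap (QuotientGroup.mk' Z)).map D.subtype) ((hK.comap_of_ker_isPGroup _ (by
    rwa [QuotientGroup.ker_mk'])).map _) (D.subtype.comp ((normalizer (K : Set (D ⧸ Z))).comap
    (QuotientGroup.mk' Z)).subtype) ((QuotientGroup.mk' _).comp ((QuotientGroup.mk' Z).subgroupComap _))
    ((QuotientGroup.mk'_surjective _).comp (MonoidHom.subgroupComap_surjective_of_surjective _ _ fs))
    (fun x => le_normalizer_map _ (mem_map_of_mem _ (le_normalizer_comap _ x.2))) fun x hx =>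
      (QuotientGroup.eq_one_iff _).2 fun k hk => ?_
  obtain ⟨k, rfl⟩ := fs k
  exact congrArg (QuotientGroup.mk' Z) (Subtype.ext (hx _ (mem_map_of_mem _ hk)) : k * x.1 = x.1 * k)

theorem AutS.main (h23 : ¬ ((p = 2 ∧ q = 3) ∨ (p = 3 ∧ q = 2))) (hpq : p ≠ q) (n : ℕ) :
    ∀ (G : Type u) [Group G] [Finite G], Nat.card G = n → AutS p G → ∀ H : Subgroup G, IsPGroup p H →
      Act q H (normalizer (H : Set G)) → ∃ K P : Subgroup G, SylIn p P ⊤ ∧ K ≤ P ∧ P ≤ normalizer (K : Set G) ∧
        Act q K (normalizer (K : Set G)) := by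
  induction n using Nat.strong_induction_on with
  | _ n ih =>
  intro G _ _ hn hs H0 g0 a0
  obtain ⟨⟨H, P⟩, ⟨gP, l1, l2, a⟩, mx⟩ := Set.exists_max_image {x : Subgroup G × Subgroup G | IsPGroup p x.2 ∧
    x.1 ≤ x.2 ∧ x.2 ≤ normalizer (x.1 : Set G) ∧ Act q x.1 (normalizer (x.1 : Set G))} (fun x => Nat.card x.2)
    (Set.toFinite _) ⟨(H0, H0), g0, le_rfl, le_normalizer, a0⟩
  dsimp only at gP l1 l2 a mx
  have sP : SylIn p P (normalizer (H : Set G)) := ⟨l2, gP, fun Q q1 q2 q3 =>
    (eq_of_le_of_card_ge q3 (mx (H, Q) ⟨q2, l1.trans q3, q1, a⟩)).symm⟩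
  obtain ⟨S, hS, lS⟩ := exists_sylIn_ge le_top gP
  by_cases e : P = S
  · exact ⟨H, P, e ▸ hS, l1, l2, a⟩
  -- a `p`-solvable subgroup `L` of `N(H)` containing `P` and covering `N(H)/C(H)`
  set N := normalizer (H : Set G)
  set C := centralizer (H : Set G)
  have sR := sP.inf_normal' (centralizer_le_normalizer _) (normalizer_le_normalizer_centralizer H)
  set R := P ⊓ C
  have lP : P ≤ N ⊓ normalizer (R : Set G) :=
    le_inf l2 (le_normalizer_inf le_normalizer (le_normalizer_centralizer l2))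
  set L := N ⊓ normalizer (R : Set G)
  have aL : Act q H L := act_of_dvd (by
    have := a.dvd le_rfl
    rwa [← show C ⊔ L = N from sR.frattini_sup (centralizer_le_normalizer _) (normalizer_le_normalizer_centralizer H),
      BG.relIndex_sup_norml (inf_le_left.trans (normalizer_le_normalizer_centralizer H))] at this)
  have nL : L ≤ normalizer ((H ⊔ R : Subgroup G) : Set G) := le_normalizer_sup inf_le_left inf_le_right
  have sL : IsPSolvable p L := by
    set W := centralizer ((H ⊔ R : Subgroup G) : Set G)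
    have : (W.subgroupOf L).Normal := normal_subgroupOf_of_le_normalizer (le_normalizer_centralizer nL)
    refine Solv.isPSolvable_of_normal_of_quotient (W.subgroupOf L) ?_ (hs.use (gP.to_le (sup_le l1 inf_le_left))
      L.subtype _ (QuotientGroup.mk'_surjective _) (fun x => nL x.2) fun x hx => (QuotientGroup.eq_one_iff _).2 hx)
    have w1 : W ≤ C := centralizer_anti le_sup_left
    have w2 : W ≤ normalizer (R : Set G) := le_normalizer_of_le_centralizer (centralizer_anti le_sup_right)
    have s : SylIn p (W ⊓ R) W := ⟨inf_le_left, sR.pg.to_le inf_le_right, fun Q q1 q2 q3 =>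
      le_antisymm (le_inf q1 (sR.le_of_normalizes (q1.trans w1) q2 (q1.trans w2))) q3⟩
    have : ((W ⊓ R).subgroupOf W).Normal := normal_subgroupOf_of_le_normalizer (le_normalizer_inf le_normalizer w2)
    refine Solv.isPiSep_singleton_iff.1 (Solv.IsPiSep.of_injective (G := W) (.of_normal_of_quotient ((W ⊓ R).subgroupOf W)
      (.of_card (Or.inl (Solv.isPiNum_card_singleton_iff.2 (isPGroup_subgroupOf s.pg _)))) (.of_card (Or.inr
      ((Solv.isPiNum_compl_singleton_iff hp.out).2 ((hp.out.coprime_iff_not_dvd).2 s.not_dvd_relIndex).symm))))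
      (f := (subgroupOfEquivOfLe (le_inf (w1.trans (centralizer_le_normalizer _)) w2)).toMonoidHom)
      (MulEquiv.injective _))
  have zJ : omegaOne p (P ⊓ centralizer (P : Set G)) ≤ thompsonSubgroupOf p P := by
    obtain ⟨A, hA⟩ := PLocal.eaMax_nonempty p P
    exact (omegaOne_mono (inf_le_inf_left _ (centralizer_anti hA.1))).trans
      ((PLocal.omegaOne_centralizer_le hA).trans (PLocal.le_J hA))
  obtain ⟨Q, q1, q2, q3⟩ : Act q H (N ⊓ centralizer (omegaOne p (P ⊓ centralizer (P : Set G)) : Set G)) := by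
    rcases act_or h23 sL (sP.mono lP inf_le_left) l1 inf_le_left aL with h | ⟨Q, q1, q2, q3⟩
    · exact h.mono le_rfl (inf_le_inf_right _ inf_le_left)
    refine ⟨Q, le_inf (q1.trans (inf_le_left.trans inf_le_left)) (le_trans ?_ (centralizer_anti zJ)), q2, q3⟩
    by_contra k
    have lt := lt_inf_normalizer hS.pg (lS.lt_of_ne e)
    exact (BG.proper_card lt).not_ge (mx (thompsonSubgroupOf p P, S ⊓ normalizer (P : Set G)) ⟨hS.pg.to_le inf_le_left,
      (PLocal.J_le p P).trans lt.le, inf_le_right.trans (PLocal.normalizer_le_normalizer_J p P),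
      Q, q1.trans inf_le_right, q2, k⟩)
  set Z := omegaOne p (S ⊓ centralizer (S : Set G))
  have zS : Z ≤ S := omegaOne_center_le _ _
  have qZ : Q ≤ centralizer (Z : Set G) := (q1.trans inf_le_right).trans (centralizer_anti (omegaOne_mono (le_inf
    ((le_inf inf_le_left (inf_le_right.trans ((centralizer_anti (l1.trans lS)).trans
      (centralizer_le_normalizer _)))).trans (sP.max _ inf_le_right (hS.pg.to_le inf_le_left) (le_inf lS l2)).le)
    (inf_le_right.trans (centralizer_anti lS)))))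
  set D := centralizer (Z : Set G)
  have sD : S ≤ D := le_centralizer_omegaOne_center _ _
  have : (Z.subgroupOf D).Normal := normal_subgroupOf_of_le_normalizer (centralizer_le_normalizer _)
  have gZ := isPGroup_subgroupOf (hS.pg.to_le zS) D
  set f := QuotientGroup.mk' (Z.subgroupOf D)
  have fs : Function.Surjective f := QuotientGroup.mk'_surjective _
  have hD := l1.trans (lS.trans sD)
  have z0 : Z.subgroupOf D ≠ ⊥ := fun k => omegaOne_center_ne_bot hS.pg (fun k => e (le_antisymm lS (k.le.trans bot_le)))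
    ((map_subgroupOf_eq_of_le (zS.trans sD)).symm.trans (by rw [k, Subgroup.map_bot]))
  obtain ⟨K, T, t1, t2, t3, t4⟩ := ih _ (hn ▸ (Solv.card_quotient_lt z0).trans_le (card_le_card_group D)) _ rfl
    (hs.quot D _ gZ) ((H.subgroupOf D).map f) ((isPGroup_subgroupOf (gP.to_le l1) D).map f)
    ⟨(Q.subgroupOf D).map f, (map_mono fun x hx => subgroupOf_normalizer_eq hD ▸ (q1 hx).1).trans (le_normalizer_map f),
      (isPGroup_subgroupOf q2 D).map f, fun k => q3 (BG.stable_factor_cent qZ (commutator_le.2 fun x hx y hy => by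
        have := k (mem_map_of_mem f (show (⟨y, qZ hy⟩ : D) ∈ _ from hy)) _
          (mem_map_of_mem f (show (⟨x, hD hx⟩ : D) ∈ H.subgroupOf D from hx))
        rw [← commutatorElement_eq_one_iff_mul_comm, ← map_commutatorElement] at this
        exact (QuotientGroup.eq_one_iff (N := Z.subgroupOf D) _).1 this) (IsPGroup.coprime_card_of_ne p q hpq _ _ (hS.pg.to_le zS) q2))⟩
  refine ⟨(K.comap f).map D.subtype, (T.comap f).map D.subtype, sylIn_of_not_dvd_relIndex le_top
    ((t1.pg.comap_of_ker_isPGroup _ (by rwa [QuotientGroup.ker_mk'])).map _) ?_, map_mono (comap_mono t2),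
    (map_mono ((comap_mono t3).trans (le_normalizer_comap f))).trans (le_normalizer_map _), act_of_dvd ?_⟩
  · have a := t1.not_dvd_relIndex
    have b := hS.not_dvd_relIndex
    rw [relIndex_top_right] at *
    rw [index_map_subtype, index_comap_of_surjective _ fs, hp.out.dvd_mul]
    exact not_or.2 ⟨a, fun k => b (k.trans (index_dvd_of_le sD))⟩
  · have := t4.dvd le_rfl
    rw [← map_comap_eq_self_of_surjective fs (normalizer _), ← relIndex_comap] at this
    refine (this.trans (relIndex_dvd_of_le_left _ (H := (centralizer (((K.comap f).map D.subtype : Subgroup G) :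
      Set G)).subgroupOf D) fun x hx k hk => ?_)).trans ?_
    · obtain ⟨k, rfl⟩ := fs k
      rw [← map_mul, ← map_mul, show k * x = x * k from Subtype.ext (hx _ (mem_map_of_mem _ hk))]
    · rw [subgroupOf, relIndex_comap]
      exact BG.relIndex_dvd_of_norm (normalizer_le_normalizer_centralizer _)
        ((map_mono (le_normalizer_comap f)).trans (le_normalizer_map _))

end Cfsg.Agent.Loc
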