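import Cfsg.Agent.Loc.Comm
import Cfsg.Prelude.Def_DStar

/-! The Glauberman–Solomon subgroup `D*(S)`: membership in the family, centralizes normal abelian subgroups, is itself a member,
is characteristic. -/

set_option autoImplicit false

namespace Cfsg.Agent.Loc

open Subgroup Cfsg
open scoped commutatorElement

variable {G : Type*} [Group G] {p : ℕ}

theorem dStarFamily_iff {A : Subgroup G} :
    A ∈ dStarFamily G ↔ A ≤ centralizer (A : Set G) ∧
      ∀ x : G, ⁅⁅A, zpowers x⁆, A⁆ = ⊥ → ⁅⁅A, zpowers x⁆, zpowers x⁆ = ⊥ → x ∈ centralizer (A : Set G) := by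
  rw [le_centralizer_iff_isMulCommutative]
  refine and_congr_right fun hA => forall_congr' fun x => ?_
  rw [class_two_sup_iff (le_centralizer_iff_isMulCommutative.2 hA) (le_centralizer _), and_imp]
  rfl

theorem le_dStar {A : Subgroup G} (hA : A ∈ dStarFamily G) : A ≤ dStar G := le_sSup hA

theorem center_mem_dStarFamily : center G ∈ dStarFamily G :=
  dStarFamily_iff.2 ⟨by rw [centralizer_center]; exact le_top,
    fun _ _ _ => by rw [centralizer_center]; trivial⟩

theorem le_centralizer_of_dStarFamily [Finite G] [Fact p.Prime] (hG : IsPGroup p G) {A B : Subgroup G}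
    (hA : A ∈ dStarFamily G) [B.Normal] (hB : B ≤ centralizer (B : Set G)) :
    B ≤ centralizer (A : Set G) := by
  obtain ⟨h1, h2⟩ := dStarFamily_iff.1 hA
  by_contra hne
  obtain ⟨x, hx, hxM, hc⟩ := exists_commutator_mem_of_lt (M := B ⊓ centralizer (A : Set G))
    (hG.to_subgroup B) (hG.to_subgroup A) le_normalizer_of_normal
    (le_normalizer_inf le_normalizer_of_normal (le_normalizer_centralizer le_normalizer))
    (le_normalizer_of_le_centralizer (hB.trans (centralizer_anti inf_le_left)))
    (fun h => hne (h.trans inf_le_right))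
  have h3 : ⁅A, zpowers x⁆ ≤ B ⊓ centralizer (A : Set G) :=
    commutator_zpowers_right_le
      (centralizer_le_normalizer _ (centralizer_anti inf_le_left (hB hx)))
      fun c hc' => by rw [← commutatorElement_inv]; exact inv_mem (hc c hc')
  refine hxM ⟨hx, h2 x ?_ ?_⟩
  · exact commutator_eq_bot_iff_le_centralizer.2 (h3.trans inf_le_right)
  · exact commutator_eq_bot_iff_le_centralizer.2
      (h3.trans (inf_le_left.trans (hB.trans (centralizer_anti (zpowers_le.2 hx)))))

theorem dStar_le_centralizer [Finite G] [Fact p.Prime] (hG : IsPGroup p G) {B : Subgroup G}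
    [B.Normal] (hB : B ≤ centralizer (B : Set G)) : dStar G ≤ centralizer (B : Set G) :=
  sSup_le fun _ hA => le_centralizer_iff.1 (le_centralizer_of_dStarFamily hG hA hB)

theorem dStar_abelian [Finite G] [Fact p.Prime] (hG : IsPGroup p G) :
    dStar G ≤ centralizer ((dStar G : Subgroup G) : Set G) := by
  obtain ⟨M, -, -, h3, h4, h5⟩ := exists_maximal_normal_abelian (hG.to_subgroup ⊤) (A := ⊥) bot_le
    (le_normalizer_bot _) bot_le
  have := normal_of_top_le_normalizer h3
  exact le_centralizer_self_of_le h4 ((le_inf le_top (dStar_le_centralizer hG h4)).trans h5)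

theorem dStar_mem [Finite G] [Fact p.Prime] (hG : IsPGroup p G) : dStar G ∈ dStarFamily G := by
  refine dStarFamily_iff.2 ⟨dStar_abelian hG, fun x h1 h2 => ?_⟩
  have : dStar G ≤ centralizer ((zpowers x : Subgroup G) : Set G) := sSup_le fun A hA => by
    rw [le_centralizer_iff, zpowers_le]
    refine (dStarFamily_iff.1 hA).2 x (le_bot_iff.1 ?_) (le_bot_iff.1 ?_)
    · exact h1 ▸ commutator_mono (commutator_mono (le_dStar hA) le_rfl) (le_dStar hA)
    · exact h2 ▸ commutator_mono (commutator_mono (le_dStar hA) le_rfl) le_rfl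
  exact le_centralizer_iff.1 this (mem_zpowers x)

theorem comap_mem_dStarFamily {H : Type*} [Group H] {f : H →* G} (hf : Function.Injective f)
    {A : Subgroup G} (hA : A ∈ dStarFamily G) (hle : A ≤ f.range) : A.comap f ∈ dStarFamily H := by
  obtain ⟨h1, h2⟩ := dStarFamily_iff.1 hA
  refine dStarFamily_iff.2 ⟨fun x hx y hy => hf ?_, fun x k1 k2 y hy => hf ?_⟩
  · rw [map_mul, map_mul]; exact h1 hx _ hy
  · rw [map_mul, map_mul]
    have e1 := congrArg (Subgroup.map f) k1
    have e2 := congrArg (Subgroup.map f) k2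
    rw [map_commutator, map_commutator, map_comap_eq_self hle, MonoidHom.map_zpowers, Subgroup.map_bot] at e1 e2
    exact h2 _ e1 e2 _ hy

instance dStar_characteristic (G : Type*) [Group G] : (dStar G).Characteristic :=
  characteristic_iff_le_comap.2 fun φ => sSup_le fun A hA => by
    have := le_dStar (comap_mem_dStarFamily (f := φ.symm.toMonoidHom) φ.symm.injective hA
      (by rw [MonoidHom.range_eq_top.2 φ.symm.surjective]; exact le_top))
    intro x hx
    exact this (show φ.symm (φ x) ∈ A by rwa [φ.symm_apply_apply])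

end Cfsg.Agent.Loc
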