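import Cfsg.Agent.Loc.Ons
import Cfsg.Agent.Char.Frobenius
import Cfsg.Agent.S3493

/-! Linear groups in characteristic two all of whose vector stabilizers are maximal have one component. -/
set_option autoImplicit false
namespace Cfsg.Agent.Loc
open Subgroup Cfsg MulAction Cfsg.Agent.Sig

variable {H V : Type*} [Group H] [Finite H] {T U X K : Subgroup H}

theorem exists_invol_not_mem (hF : fitIn (⊤ : Subgroup H) = ⊥) (hT : CompIn T ⊤) (h : ¬ T ≤ K) :
    ∃ t ∈ T, t * t = 1 ∧ t ∉ K := by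
  by_contra! hcon
  obtain ⟨s, hs, t, -, s2, -, hst⟩ := S3493.exists_invols hF hT
  rcases comp_normal hF hT (K := closure {t : H | t ∈ T ∧ t * t = 1}) ((closure_le _).2 fun t ht => ht.1)
    (le_normalizer_of_cj_le fun g hg => by
      rw [cj_closure]
      refine closure_mono ?_
      rintro _ ⟨t, ht, rfl⟩
      exact ⟨T.mul_mem (T.mul_mem hg ht.1) (T.inv_mem hg), by rw [conj_mul, ht.2]; simp⟩) with h1 | h1
  · exact h (h1.ge.trans ((closure_le _).2 fun t ht => hcon t ht.1 ht.2))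
  · exact hst (mem_bot.1 (h1.le (subset_closure ⟨hs, s2⟩)) ▸ Commute.one_left t)

variable [CommGroup V] [Finite V] [MulDistribMulAction H V]

/-- the fixed points of a subgroup -/
def fixS (V : Type*) [CommGroup V] [MulDistribMulAction H V] (K : Subgroup H) : Subgroup V where
  carrier := {v | K ≤ stabilizer H v}
  mul_mem' := fun ha hb k hk => by rw [mem_stabilizer_iff, smul_mul', ha hk, hb hk]
  one_mem' := fun k _ => smul_one k
  inv_mem' := fun ha k hk => by rw [mem_stabilizer_iff, smul_inv', ha hk]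

omit [Finite H] [Finite V] in
theorem smul_mem_fixS {v : V} (g : H) (h : v ∈ fixS V K) : g • v ∈ fixS V (cj g K) := fun k hk => by
  have := mem_stabilizer_iff.1 (h (mem_cj.1 hk))
  rwa [mul_smul, mul_smul, inv_smul_eq_iff] at this

omit [Finite H] in
theorem card_fixS_le (g : H) (K : Subgroup H) : Nat.card (fixS V K) ≤ Nat.card (fixS V (cj g K)) :=
  Nat.card_le_card_of_injective (fun v => ⟨g • v.1, smul_mem_fixS g v.2⟩) fun _ _ e =>
    Subtype.ext (MulAction.injective g (congrArg Subtype.val e))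

theorem exists_fixed_of_invol [Nontrivial V] (hexp : ∀ v : V, v * v = 1) {t : H} (ht : t * t = 1) :
    ∃ v : V, v ≠ 1 ∧ t • v = v := by
  obtain ⟨v, hv⟩ := exists_ne (1 : V)
  by_cases h : t • v = v
  · exact ⟨v, hv, h⟩
  · exact ⟨v * t • v, fun e => h (mul_left_cancel (e.trans (hexp v).symm)), by
      rw [smul_mul', ← mul_smul, ht, one_smul, mul_comm]⟩

theorem ep_one_comp [Nontrivial V] (hmax : ∀ v : V, v ≠ 1 → IsCoatom (stabilizer H v))
    (hcf : ∀ v : V, v ≠ 1 → ∀ K : Subgroup H, K.Normal → K ≤ stabilizer H v → K = ⊥)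
    (hexp : ∀ v : V, v * v = 1)
    (hirr : ∀ W : Subgroup V, (∀ h : H, ∀ w ∈ W, h • w ∈ W) → W = ⊥ ∨ W = ⊤)
    (hF : fitIn (⊤ : Subgroup H) = ⊥) (hT : CompIn T ⊤) (hU : CompIn U ⊤) : T = U := by
  by_contra hne
  have nrm : ∀ v : V, v ≠ 1 → ∀ K : Subgroup H, stabilizer H v ≤ normalizer (K : Set H) →
      ∀ n ∈ normalizer (K : Set H), n ∉ stabilizer H v → K.Normal := fun v hv K h1 n h2 h3 =>
    normalizer_eq_top_iff.1 ((hmax v hv).2 _ (lt_of_le_of_ne h1 fun e => h3 (e ▸ h2)))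
  have dec : ∀ v : V, v ≠ 1 → layerIn (⊤ : Subgroup H) ⊔ stabilizer H v = ⊤ := fun v hv =>
    (hmax v hv).2 _ (lt_of_le_of_ne le_sup_right fun e => hT.ne_bot (le_bot_iff.1
      (hcf v hv _ inferInstance (le_sup_left.trans e.ge) ▸ hT.le_layerIn)))
  have tr : ∀ v : V, v ≠ 1 → ∀ X, CompIn X ⊤ → ∀ h : H, ∃ m ∈ stabilizer H v, cj m X = cj h X := fun v hv X hX h => by
    obtain ⟨m, hm, e, he, rfl⟩ := (mem_sup_of_le_normalizer_right (H := stabilizer H v) le_normalizer_of_normal).1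
      ((sup_comm _ _).trans (dec v hv) ▸ mem_top h)
    exact ⟨m, hm, by rw [← cj_cj, cj_eq_of_mem_normalizer (hX.layerIn_le_normalizer he)]⟩
  have nle : ∀ v : V, v ≠ 1 → ∀ X, CompIn X ⊤ → ¬ X ≤ stabilizer H v := fun v hv X hX h =>
    hX.ne_bot (le_bot_iff.1 (hcf v hv (normalClosure X) inferInstance ((closure_le _).2 fun y hy => by
      obtain ⟨x, hx, hc⟩ := Group.mem_conjugatesOfSet_iff.1 hy
      obtain ⟨g, rfl⟩ := isConj_iff.1 hc
      obtain ⟨m, hm, e⟩ := tr v hv X hX g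
      exact cj_le_of_mem hm h (e ▸ conj_mem_cj hx)) ▸ le_normalClosure))
  obtain ⟨t0, ht0, t02, t01⟩ := exists_invol_not_mem hF hT (K := ⊥) fun h => hT.ne_bot (le_bot_iff.1 h)
  obtain ⟨v0, hv0, tv0⟩ := exists_fixed_of_invol hexp t02
  obtain ⟨g0, hg0⟩ : ∃ g, cj g T ≠ T := by
    by_contra! hn
    have := normal_iff_cj.2 hn
    obtain ⟨u, hu, hu'⟩ := SetLike.not_le_iff_exists.1 (nle v0 hv0 U hU)
    exact t01 (hcf v0 hv0 (T ⊓ stabilizer H v0) (nrm v0 hv0 _ (le_normalizer_inf le_normalizer_of_normal le_normalizer)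
      u (le_normalizer_of_le_centralizer ((comp_cent hT hU hne).trans (centralizer_anti inf_le_left)) hu) hu')
      inf_le_right ▸ ⟨ht0, tv0⟩)
  clear hne hU
  have cc := fun g => comp_cj hT g
  have dich : ∀ v : V, v ≠ 1 →
      (∀ h, ∀ x ∈ cj h T, ∀ c ∈ centralizer (cj h T : Set H), x * c ∈ stabilizer H v → x ∈ stabilizer H v) ∨
      (∀ h, ∀ x ∈ cj h T, ∃ c ∈ centralizer (cj h T : Set H), x * c ∈ stabilizer H v) := fun v hv => by
    refine or_iff_not_imp_left.2 fun hn h x hx => ?_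
    push Not at hn
    obtain ⟨h0, x0, a1, c0, a2, a3, a4⟩ := hn
    set Y := closure {x | ∃ h, x ∈ cj h T ∧ ∃ c ∈ centralizer (cj h T : Set H), x * c ∈ stabilizer H v}
    have m0 : x0 ∈ Y := subset_closure ⟨h0, a1, c0, a2, a3⟩
    have nY : Y.Normal := nrm v hv Y (le_normalizer_of_cj_le fun m hm => by
      rw [cj_closure]
      refine closure_mono ?_
      rintro _ ⟨x, ⟨h, b1, c, b2, b3⟩, rfl⟩
      refine ⟨m * h, cj_cj m h T ▸ conj_mem_cj b1, m * c * m⁻¹, ?_, ?_⟩
      · rw [← cj_cj, ← cj_centralizer]; exact conj_mem_cj b2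
      · rw [conj_mul]; exact mul_mem (mul_mem hm b3) (inv_mem hm)) x0 (le_normalizer m0) a4
    have l0 : cj h0 T ≤ Y := inf_eq_left.1 ((comp_normal hF (cc h0) inf_le_left
      (le_normalizer_inf le_normalizer le_normalizer_of_normal)).resolve_right fun e =>
        a4 (mem_bot.1 (e.le ⟨a1, m0⟩) ▸ one_mem _))
    have l1 : cj h T ≤ Y := by
      have := cj_mono (h * h0⁻¹) l0
      rwa [cj_cj, inv_mul_cancel_right, cj_eq_of_normal _ Y] at this
    have l2 : Y ≤ (normalizer (cj h T : Set H) ⊓ stabilizer H v) ⊔ centralizer (cj h T : Set H) := by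
      refine (closure_le _).2 ?_
      rintro y ⟨k, b1, c, b2, b3⟩
      by_cases e : cj h T = cj k T
      · rw [← e] at b1 b2
        simpa using mul_mem (mem_sup_left (S := normalizer (cj h T : Set H) ⊓ stabilizer H v) ⟨mul_mem
          (le_normalizer b1) (centralizer_le_normalizer _ b2), b3⟩) (mem_sup_right (inv_mem b2))
      · exact mem_sup_right (comp_cent (cc h) (cc k) e b1)
    obtain ⟨s, hs, c, hc, rfl⟩ := (mem_sup_of_le_normalizer_right (inf_le_left.trans
      (normalizer_le_normalizer_centralizer _))).1 (l2 (l1 hx))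
    exact ⟨c⁻¹, inv_mem hc, by simpa using hs.2⟩
  obtain ⟨v, hv, hmx⟩ := Set.exists_max_image {v : V | v ≠ 1} (fun v => Nat.card ↥(T ⊓ stabilizer H v))
    (Set.toFinite _) ⟨v0, hv0⟩
  have cd : ∀ w : V, w ≠ 1 → ∀ h, Nat.card ↥(cj h T ⊓ stabilizer H w) = Nat.card ↥(T ⊓ stabilizer H w) :=
    fun w hw h => by
      obtain ⟨m, hm, e⟩ := tr w hw T hT h
      rw [← e, ← cj_eq_of_mem hm, ← cj_inf, card_cj, cj_eq_of_mem hm]
  have R0 : ∀ h, cj h T ⊓ stabilizer H v ≠ ⊥ := fun h e => by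
    have := hmx v0 hv0
    rw [← cd v hv h, e, card_bot, card_le_one_iff_eq_bot] at this
    exact t01 (this ▸ ⟨ht0, tv0⟩)
  have F1 : ∀ h, ∀ w : V, w ≠ 1 → cj h T ⊓ stabilizer H v ≤ stabilizer H w → cj h T ⊓ stabilizer H w ≤ stabilizer H v :=
    fun h w hw e => (eq_of_le_of_card_ge (le_inf inf_le_left e) (by
      rw [cd w hw, cd v hv]; exact hmx w hw)).ge.trans inf_le_right
  have F3 : ∀ h, ∀ n ∈ cj h T, n ∉ stabilizer H v →
      fixS V (cj h T ⊓ stabilizer H v) ⊓ fixS V (cj n (cj h T ⊓ stabilizer H v)) = ⊥ := fun h n hn hn' => by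
    refine eq_bot_iff.2 fun w hw => by_contra fun w1 => ?_
    have e := (le_inf (cj_le_of_mem hn inf_le_left) hw.2)
    replace e := le_inf (cj_le_of_mem hn inf_le_left) (e.trans (F1 h w w1 hw.1))
    have l : ∀ m, (∀ k, ∀ x ∈ cj k T ⊓ stabilizer H v, ∃ k, m * x * m⁻¹ ∈ cj k T ⊓ stabilizer H v) →
        m ∈ normalizer (closure {x | ∃ k, x ∈ cj k T ⊓ stabilizer H v} : Set H) := fun m hm =>
      mem_normalizer_of_cj_le (by
        rw [cj_closure]
        refine closure_mono ?_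
        rintro _ ⟨x, ⟨k, b⟩, rfl⟩
        exact hm k x b)
    refine R0 h (le_bot_iff.1 (hcf v hv _ (nrm v hv _ (fun m hm => l m fun k x b =>
      ⟨m * k, cj_cj m k T ▸ conj_mem_cj b.1, cj_le_of_mem hm le_rfl (conj_mem_cj b.2)⟩) n (l n fun k x b => ?_) hn')
      ((closure_le _).2 fun x ⟨_, b⟩ => b.2) ▸ fun x hx => subset_closure ⟨h, hx⟩))
    by_cases e' : cj k T = cj h T
    · exact ⟨h, e (conj_mem_cj (e' ▸ b))⟩
    · exact ⟨k, by rwa [← comp_cent (cc k) (cc h) e' hn x b.1, mul_inv_cancel_right]⟩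
  have ta := (dich v hv).resolve_right fun hb => R0 1 ((comp_normal hF (cc 1) inf_le_left fun x hx => by
    obtain ⟨c, c1, c2⟩ := hb 1 x hx
    simpa using mul_mem (le_normalizer_inf (L := normalizer (cj 1 T : Set H) ⊓ stabilizer H v) inf_le_left
      (inf_le_right.trans le_normalizer) ⟨mul_mem (le_normalizer hx) (centralizer_le_normalizer _ c1), c2⟩)
      (inv_mem (centralizer_le_normalizer _ (centralizer_anti inf_le_left c1)))).resolve_left fun e =>
        nle v hv _ (cc 1) (e.ge.trans inf_le_right))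
  have n1 : cj 1 T ≠ cj g0 T := by rw [cj_one]; exact hg0.symm
  obtain ⟨s, hs, s2, sv⟩ := exists_invol_not_mem hF (cc 1) (nle v hv _ (cc 1))
  obtain ⟨t, ht, t2, tv⟩ := exists_invol_not_mem hF (cc g0) (nle v hv _ (cc g0))
  have tc := comp_cent (cc 1) (cc g0) n1 ht
  have st : s * t = t * s := tc s hs
  have can : ∀ {a b : V}, a * b = 1 → b = a := fun e => mul_left_cancel (e.trans (hexp _).symm)
  have w1 : v * (s * t) • v ≠ 1 := fun e => sv (ta 1 s hs t tc (can e))
  have ws : s * t ∈ stabilizer H (v * (s * t) • v) := by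
    rw [mem_stabilizer_iff, smul_mul', ← mul_smul, mul_assoc, ← mul_assoc t, ← st, mul_assoc, t2, mul_one, s2,
      one_smul, mul_comm]
  rcases dich _ w1 with hb | hb
  · have e := mem_stabilizer_iff.1 (hb 1 s hs t tc ws)
    rw [smul_mul', ← mul_smul, ← mul_assoc, s2, one_mul] at e
    refine sv (F1 1 (v * t • v) (fun e => tv (can e)) (fun x hx => ?_) ⟨hs, ?_⟩)
    · rw [mem_stabilizer_iff, smul_mul', ← mul_smul, tc x hx.1, mul_smul, mem_stabilizer_iff.1 hx.2]
    · change s • (v * t • v) = _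
      rw [smul_mul', ← mul_smul]
      refine can ?_
      calc _ = (s • v * t • v) * (v * (s * t) • v) := by ac_rfl
        _ = 1 := by rw [e, hexp]
  set U1 := cj g0 T
  set R := U1 ⊓ stabilizer H v
  have inv : ∀ c ∈ centralizer (U1 : Set H), ∀ w ∈ fixS V R ⊔ fixS V (cj t R), c • w ∈ fixS V R ⊔ fixS V (cj t R) := by
    intro c hc w hw
    obtain ⟨a, ha, b, hb, rfl⟩ := mem_sup.1 hw
    rw [smul_mul']
    refine mul_mem (mem_sup_left ?_) (mem_sup_right ?_)
    · have := smul_mem_fixS c ha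
      rwa [cj_eq_of_mem_centralizer (centralizer_anti (inf_le_left : R ≤ U1) hc)] at this
    · exact cj_eq_of_mem_centralizer (centralizer_anti (cj_le_of_mem ht (inf_le_left : R ≤ U1)) hc) ▸
        smul_mem_fixS c hb
  have sc := comp_cent (cc g0) (cc 1) n1.symm hs
  have wm : v * (s * t) • v ∈ fixS V R ⊔ fixS V (cj t R) := mul_mem (mem_sup_left (inf_le_right : R ≤ _))
    (mul_smul s t v ▸ inv s sc _ (mem_sup_right (smul_mem_fixS t (inf_le_right : R ≤ _))))
  have top : fixS V R ⊔ fixS V (cj t R) = ⊤ := by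
    rcases hirr (closure (orbit H (v * (s * t) • v))) (fun h w hw => by
      refine closure_induction (fun x hx => subset_closure (mem_orbit_of_mem_orbit h hx)) (by simp)
        (fun x y _ _ a b => by rw [smul_mul']; exact mul_mem a b) (fun x _ a => by rw [smul_inv']; exact inv_mem a) hw)
      with e | e
    · exact absurd (mem_bot.1 (e ▸ subset_closure (mem_orbit_self _))) w1
    refine top_le_iff.1 (e ▸ (closure_le _).2 ?_)
    rintro _ ⟨h, rfl⟩
    obtain ⟨e, he, m, hm, rfl⟩ := (mem_sup_of_le_normalizer_left le_normalizer_of_normal).1 (dec _ w1 ▸ mem_top h)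
    obtain ⟨a, ha, c, hc, rfl⟩ := layer_decomp (cc g0) he
    obtain ⟨d, hd, hd'⟩ := hb g0 a ha
    have : a * c = c * d⁻¹ * (a * d) := by rw [hc.2 a ha, hd a ha]; group
    change (a * c * m) • (v * (s * t) • v) ∈ _
    rw [this, mul_smul _ m, mem_stabilizer_iff.1 hm, mul_smul _ (a * d), mem_stabilizer_iff.1 hd', mul_smul c]
    exact inv c hc.2 _ (inv _ (inv_mem hd) _ wm)
  have TI : ∀ n ∈ U1, n ∉ stabilizer H v → R ⊓ cj n R = ⊥ := fun n hn hn' => by
    have e1 := Solv.card_sup_of_disjoint le_normalizer_of_normal (F3 g0 n hn hn')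
    have e2 := Solv.card_sup_of_disjoint le_normalizer_of_normal (F3 g0 t ht tv)
    have e3 := card_fixS_le (V := V) t⁻¹ (cj t R)
    rw [cj_inv_cj] at e3
    have e4 : fixS V R ⊔ fixS V (cj n R) = ⊤ := eq_of_le_of_card_ge le_top (by
      rw [← top, e1, e2]; exact Nat.mul_le_mul_left _ (e3.trans (card_fixS_le n R)))
    refine eq_bot_iff.2 fun x hx => ?_
    have : ∀ w : V, x • w = w := fun w => by
      obtain ⟨a, ha, b, hb, rfl⟩ := mem_sup.1 (e4 ▸ mem_top w)
      rw [smul_mul', ha hx.1, hb hx.2]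
    exact hcf v hv (toPermHom H V).ker inferInstance (fun y hy => DFunLike.congr_fun (MonoidHom.mem_ker.1 hy) v) ▸
      MonoidHom.mem_ker.2 (Equiv.ext this)
  obtain ⟨N, -, nN, hN⟩ := Char.exists_frobenius_kernel (H := R.subgroupOf U1) ⟨fun e => R0 g0 (by
    rwa [subgroupOf_eq_bot, disjoint_iff, inf_of_le_left inf_le_left] at e), fun e => nle v hv _ (cc g0)
      ((subgroupOf_eq_top.1 e).trans inf_le_right), fun g hg => by
      rw [conj_smul_eq_cj, ← subgroupOf_cj, eq_bot_iff]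
      exact fun x hx => Subtype.ext (mem_bot.1 (TI g g.2 (fun e => hg ⟨g.2, e⟩) ▸ hx))⟩
  rcases comp_normal hF (cc g0) (map_subtype_le N) (normal_map_subtype nN) with e | e
  · have : N = ⊤ := by rwa [← map_subtype_inj, ← MonoidHom.range_eq_map, range_subtype]
    have := hN.disjoint
    rw [‹N = ⊤›, top_disjoint, subgroupOf_eq_bot, disjoint_iff, inf_of_le_left inf_le_left] at this
    exact R0 g0 this
  · have := hN.sup_eq_top
    rw [map_eq_bot_iff_of_injective _ U1.subtype_injective] at e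
    rw [e, bot_sup_eq] at this
    exact nle v hv _ (cc g0) ((subgroupOf_eq_top.1 this).trans inf_le_right)

end Cfsg.Agent.Loc
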