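import Cfsg.Agent.Loc.PGV1
import Cfsg.Agent.BG.Base5
import Cfsg.Agent.Char.Burnside

/-! The core of the `P(G,V)`-theorem (irreducible case). -/

set_option autoImplicit false

namespace Cfsg.Agent.Loc

open Subgroup Cfsg
open Cfsg.Agent.Sig (qs_normal qs_perfect qs_not_le_centralizer)
open scoped commutatorElement

variable {G : Type*} [Group G] {K N R W Y A B T U : Subgroup G} {a b c g k : G} {p n : ℕ}

structure PG (p : ℕ) (W K A B : Subgroup G) : Prop where
  ea : IsElementaryAbelian p W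
  nK : K ≤ normalizer (W : Set G)
  nA : A ≤ normalizer (W : Set G)
  qs : IsQuasisimple K
  aea : IsElementaryAbelian p A
  sw : ∀ a ∈ A, Sw K a
  nt : ¬ K ≤ centralizer (W : Set G)
  BA : B ≤ A
  quad : ⁅⁅W, A⁆, B⁆ = ⊥
  Bnt : ¬ B ≤ centralizer (K : Set G)
  offA : (centralizer (A : Set G)).relIndex W ≤ (centralizer (K : Set G)).relIndex A
  offB : (centralizer (B : Set G)).relIndex W ≤ (centralizer (K : Set G)).relIndex B

/-- `W` is irreducible under `⟨K, A⟩` -/
def IrrKA (W K A : Subgroup G) : Prop :=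
  ∀ U ≤ W, K ≤ normalizer (U : Set G) → A ≤ normalizer (U : Set G) → U = ⊥ ∨ U = W

/-- the diagonal subgroup attached to `a` -/
structure Diag (p : ℕ) (W K : Subgroup G) (a : G) (Y : Subgroup G) : Prop where
  le : Y ≤ K ⊔ orbR p a K
  ca : Y ≤ centralizer ({a} : Set G)
  cw : Y ≤ centralizer ((⁅W, zpowers a⁆ : Subgroup G) : Set G)
  cov : K ≤ Y ⊔ orbR p a K

theorem comm_mem_of_mem (N : Subgroup G) (ha : a ∈ N) (hb : b ∈ N) : ⁅a, b⁆ ∈ N :=
  mul_mem (mul_mem (mul_mem ha hb) (inv_mem ha)) (inv_mem hb)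

variable [Finite G] [hp : Fact p.Prime]

omit hp in
theorem ri_ne (H K : Subgroup G) : H.relIndex K ≠ 0 := index_ne_zero_of_finite

namespace PG
variable (h : PG p W K A B)
include h

theorem comm (ha : a ∈ A) (hb : b ∈ A) : Commute a b := (isElementaryAbelian_iff.1 h.aea).1 hb a ha

theorem pow (ha : a ∈ A) : a ^ p = 1 := (isElementaryAbelian_iff.1 h.aea).2 a ha

theorem powN (ha : a ∈ A) (N : Subgroup G) : a ^ p ∈ N := by rw [h.pow ha]; exact one_mem _

theorem wab : W ≤ centralizer (W : Set G) := (isElementaryAbelian_iff.1 h.ea).1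

theorem wp : IsPGroup p W := isPGroup_of_isElementaryAbelian h.ea

theorem cjn (hg : g ∈ A) : cj g K ≤ normalizer (W : Set G) := cj_le_of_mem (h.nA hg) h.nK

theorem Rc (ha : a ∈ A) (hn : a ∉ normalizer (K : Set G)) : orbR p a K ≤ centralizer (K : Set G) :=
  orbR_le_cent (fun i => h.sw _ (pow_mem ha i)) (h.powN ha _) hn

theorem Ln (ha : a ∈ A) : K ⊔ orbR p a K ≤ normalizer (W : Set G) :=
  (sup_orbR_le_iff (h.powN ha _) hp.out.pos).2 fun i => h.cjn (pow_mem ha i)

theorem cent_le (hi : IrrKA W K A) : A ⊓ centralizer (K : Set G) ≤ centralizer (W : Set G) := by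
  intro c hc
  have hz : zpowers c ≤ A := zpowers_le.2 hc.1
  rcases hi (W ⊓ centralizer ((zpowers c : Subgroup G) : Set G)) inf_le_left
    (le_normalizer_inf h.nK (le_normalizer_of_le (le_centralizer_iff.1 (zpowers_le.2 hc.2))))
    (le_normalizer_inf h.nA (le_normalizer_of_le
      ((isElementaryAbelian_iff.1 h.aea).1.trans (centralizer_anti hz)))) with e | e
  · refine absurd e (inf_centralizer_ne_bot ((isPGroup_of_isElementaryAbelian h.aea).to_le hz) h.wp
      (hz.trans h.nA) fun e => h.nt ?_)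
    rw [e, centralizer_bot']; exact le_top
  · exact zpowers_le.1 (le_centralizer_iff.1 (e.ge.trans inf_le_right))

theorem exists_diag (hi : IrrKA W K A) (ha : a ∈ A) (hn : a ∉ normalizer (K : Set G)) : ∃ Y, Diag p W K a Y := by
  have hR := h.Rc ha hn
  set L := K ⊔ orbR p a K with hL
  set M := L ⊓ centralizer ({a} : Set G) with hM
  set X := centralizer ((⁅W, zpowers a⁆ : Subgroup G) : Set G) with hX
  have hLi := fun N => sup_orbR_le_iff' (K := K) (N := N) (h.powN ha _) hp.out.pos
  have h1 : K ≤ M ⊔ centralizer (K : Set G) :=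
    (le_cent_sup_of_norm (fun i h0 hi => le_orbR h0 hi) hR (h.powN ha _) hp.out.pos).trans (sup_le_sup_left hR _)
  have hLK : L ≤ K ⊔ centralizer (K : Set G) := sup_le_sup_left hR _
  have hMK : M ≤ normalizer (K : Set G) :=
    inf_le_left.trans (hLK.trans (sup_le le_normalizer (centralizer_le_normalizer _)))
  have hMa : M ≤ normalizer ((⁅W, zpowers a⁆ : Subgroup G) : Set G) :=
    le_normalizer_commutator (inf_le_left.trans (h.Ln ha)) (le_normalizer_of_cent_singleton inf_le_right)
  have hMX : M ≤ normalizer (X : Set G) := le_normalizer_centralizer hMa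
  refine ⟨M ⊓ X, inf_le_left.trans inf_le_left, inf_le_left.trans inf_le_right, inf_le_right,
    le_sup_of_le_sup_cent (qs_perfect h.qs) hR (inf_le_left.trans inf_le_left) ?_⟩
  refine (cover_or_cent h.qs h1 hMK (inf_le_left.trans (inf_le_left.trans hLK))
    (le_normalizer_inf le_normalizer hMX)).resolve_right fun hY => ?_
  have hMM := not_comm_le_cent h.qs h1 hMK
  have hBX : B ≤ X := (commutator_eq_bot_iff'.1 h.quad).trans
    (centralizer_anti (commutator_mono le_rfl (zpowers_le.2 ha)))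
  have hB : B ≤ zpowers a ⊔ (A ⊓ centralizer (K : Set G)) := by
    intro b hb
    have hbA := h.BA hb
    have hx : ∀ m ∈ M, ⁅m, b⁆ ∈ X := fun m hm =>
      mul_mem (conj_mem_of_mem_normalizer (hMX hm) (hBX hb)) (inv_mem (hBX hb))
    by_cases hz : ∃ z ∈ zpowers a, cj b K = cj z K
    · obtain ⟨z, hz, e⟩ := hz
      have hzA : z ∈ A := zpowers_le.2 ha hz
      have hbL : b ∈ normalizer (L : Set G) := by
        refine mem_normalizer_of_cj_le (cj_le_iff.2 ((hLi _).2 fun y hy => cj_le_iff.1 ?_))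
        rw [cj_cj, (h.comm hbA (zpowers_le.2 ha hy)).eq, ← cj_cj, e, cj_cj]
        exact (hLi _).1 le_rfl _ (mul_mem hy hz)
      have hba : b ∈ centralizer ({a} : Set G) := mem_centralizer_singleton_iff.2 (h.comm hbA ha)
      have hb' : z⁻¹ * b ∈ centralizer (K : Set G) := by
        refine mem_cent_of_cover (qs_perfect h.qs) h1 hMK
          (mem_normalizer_iff_cj.2 (by rw [← cj_cj, e, cj_inv_cj])) fun m hm => ?_
        have h2 : ⁅m, b⁆ ∈ M := ⟨PLocal.commElt_mem_left hm.1 hbL,
          comm_mem_of_mem (centralizer _) hm.2 hba⟩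
        have c1 : Commute m z := ((centralizer_zpowers a).ge hm.2 z hz).symm
        have c2 : Commute ⁅m, b⁆ z := ((centralizer_zpowers a).ge h2.2 z hz).symm
        have : ⁅m, z⁻¹ * b⁆ = z⁻¹ * (⁅m, b⁆ * z) := by
          rw [commutatorElement_def, commutatorElement_def, ← mul_assoc m, c1.inv_right.eq]; group
        rw [this, c2.eq, inv_mul_cancel_left]
        exact hY ⟨h2, hx m hm⟩
      have := mul_mem_sup hz (mem_inf.2 ⟨mul_mem (inv_mem hzA) hbA, hb'⟩)
      rwa [mul_inv_cancel_left] at this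
    · push Not at hz
      have hc : cj b L ≤ centralizer (L : Set G) := by
        refine cj_le_iff.2 ((hLi _).2 fun y hy => cj_le_iff.1 (le_centralizer_iff.1 ((hLi _).2 fun z hz' => ?_)))
        have hyA := zpowers_le.2 ha hy
        have hzA := zpowers_le.2 ha hz'
        rcases h.sw _ (mul_mem (inv_mem hzA) (mul_mem hbA hyA)) with e | e
        · refine absurd ?_ (hz (y⁻¹ * z) (mul_mem (inv_mem hy) hz'))
          rw [← cj_cj, cj_eq_iff, inv_inv, (h.comm hbA hyA).eq, ← cj_cj, cj_eq_iff] at e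
          rw [e, cj_cj]
        · rw [← cj_cj, cj_le_iff, inv_inv, cj_centralizer] at e
          rw [cj_cj]; exact le_centralizer_iff.1 e
      refine absurd (commutator_le.2 fun m hm m' hm' => hY ⟨?_, ?_⟩) hMM
      · exact comm_mem_of_mem M hm hm'
      · have c := comm_of_mem_cent (hc (conj_mem_cj (inv_mem hm'.1))) hm.1
        have e : ⁅m, m'⁆ = m * ⁅m', b⁆ * m⁻¹ * ⁅m', b⁆⁻¹ := by
          have : ⁅m', b⁆ = m' * (b * m'⁻¹ * b⁻¹) := by simp only [commutatorElement_def, mul_assoc]
          rw [this, mul_assoc m, mul_assoc m', c.inv_right.eq, mul_inv_rev, commutatorElement_def]; group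
        rw [e]
        exact X.mul_mem (conj_mem_of_mem_normalizer (hMX hm) (hx _ hm')) (X.inv_mem (hx _ hm'))
  have hCW := h.cent_le hi
  have hnz : zpowers a ≤ normalizer ((A ⊓ centralizer (K : Set G) : Subgroup G) : Set G) :=
    le_normalizer_of_le_centralizer ((zpowers_le.2 ha).trans
      ((isElementaryAbelian_iff.1 h.aea).1.trans (centralizer_anti inf_le_left)))
  have i1 : (centralizer (K : Set G)).relIndex B ≤ p := by
    refine (relIndex_le_of_le_right hB (ri_ne _ _)).trans ((relIndex_le_of_le_left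
      (inf_le_right : A ⊓ _ ≤ _) (ri_ne _ _)).trans ?_)
    rw [BG.relIndex_sup_normr hnz]
    refine (Nat.le_of_dvd Nat.card_pos (relIndex_dvd_card _ _)).trans (Nat.le_of_dvd hp.out.pos ?_)
    rw [Nat.card_zpowers]; exact orderOf_dvd_of_pow_eq_one (h.pow ha)
  obtain ⟨b, hb, hbK⟩ := SetLike.not_le_iff_exists.1 h.Bnt
  obtain ⟨z, hz, c, hc, rfl⟩ := (mem_sup_of_le_normalizer_right hnz).1 (hB hb)
  have i2 : W ⊓ centralizer (B : Set G) ≤ W ⊓ centralizer ((zpowers a : Subgroup G) : Set G) := by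
    refine le_inf inf_le_left (le_centralizer_iff.1 (zpowers_le.2 ?_))
    have hz' : z ∈ centralizer ((W ⊓ centralizer (B : Set G) : Subgroup G) : Set G) := by
      have := mul_mem (le_centralizer_iff.1 (inf_le_right : W ⊓ centralizer (B : Set G) ≤ _) hb)
        (centralizer_anti inf_le_left (hCW (inv_mem hc)))
      rwa [mul_inv_cancel_right] at this
    obtain ⟨i, rfl⟩ := mem_powers_iff_mem_zpowers.2 hz
    dsimp only at hz' hbK
    rw [← Nat.mod_add_div i p, pow_add, pow_mul, h.pow ha, one_pow, mul_one] at hz' hbK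
    refine mem_of_pow_mem (h.powN ha _) (Nat.pos_of_ne_zero fun e => hbK ?_) (Nat.mod_lt _ hp.out.pos) hz'
    rw [e, pow_zero, one_mul]; exact hc.2
  have i3 : Nat.card (⁅W, zpowers a⁆ : Subgroup G) ≤ p := by
    rw [← PLocal.relIndex_centralizer_zpowers h.ea.1 (h.nA ha)]
    refine (relIndex_le_of_le_left i2 (ri_ne _ _)).trans ?_
    rw [inf_relIndex_left]; exact h.offB.trans i1
  obtain ⟨j, hj⟩ := IsPGroup.iff_card.1
    (h.wp.to_le (commutator_le_left_of_le_normalizer (zpowers_le.2 (h.nA ha))))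
  have : IsCyclic (⁅W, zpowers a⁆ : Subgroup G) := isCyclic_of_card_dvd_prime (p := p) (by
    rw [hj] at i3 ⊢
    have := (Nat.pow_le_pow_iff_right hp.out.one_lt).1 (i3.trans (pow_one p).ge)
    simpa using pow_dvd_pow p this)
  exact hMM ((le_inf (commutator_le_left_of_le_normalizer le_normalizer) (BG.der1_cent_cyclic this hMa)).trans hY)

omit [Finite G] hp in
theorem cj_norm (hg : g ∈ A) (hb : b ∈ A) : cj b K ≤ normalizer ((cj g K : Subgroup G) : Set G) := by
  rw [← cj_normalizer, le_cj_iff, cj_cj]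
  rcases h.sw _ (mul_mem (inv_mem hg) hb) with e | e
  · rw [e]; exact le_normalizer
  · exact le_normalizer_of_le_centralizer e

theorem L_norm (ha : a ∈ A) (hg : g ∈ A) : K ⊔ orbR p a K ≤ normalizer ((cj g K : Subgroup G) : Set G) :=
  (sup_orbR_le_iff (h.powN ha _) hp.out.pos).2 fun i => h.cj_norm hg (pow_mem ha i)

theorem L_norm' (ha : a ∈ A) : K ⊔ orbR p a K ≤ normalizer (K : Set G) := by
  simpa only [cj_one] using h.L_norm ha A.one_mem

omit [Finite G] hp in
theorem qs_cj (g : G) : IsQuasisimple (cj g K) := Sig.qs_map_of_injective h.qs (MulAut.conj g).injective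

omit h [Finite G] hp in
theorem _root_.Cfsg.Agent.Loc.Diag.wy (hY : Diag p W K a Y) : ⁅W, Y⁆ ≤ centralizer ({a} : Set G) := by
  rw [← centralizer_zpowers, ← commutator_eq_bot_iff_le_centralizer]
  refine commutator_commutator_eq_bot_of_rotate ?_ ?_
  · rw [commutator_eq_bot_iff_le_centralizer.2 (hY.ca.trans (centralizer_zpowers a).ge), commutator_bot_left]
  · rw [commutator_comm (zpowers a)]; exact commutator_eq_bot_iff'.2 hY.cw

theorem exists_not_cent (ha : a ∈ A) (hn : a ∉ normalizer (K : Set G)) (hY : Diag p W K a Y) :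
    ∃ d ∈ Y, d ∉ centralizer (K : Set G) :=
  SetLike.not_le_iff_exists.1 fun e => qs_not_le_centralizer h.qs (hY.cov.trans (sup_le e (h.Rc ha hn)))

theorem delta (hi : IrrKA W K A) (ha : a ∈ A) (hn : a ∉ normalizer (K : Set G))
    (hR : orbR p a K ≤ centralizer ((⁅W, K⁆ : Subgroup G) : Set G)) : False := by
  obtain ⟨Y, hY⟩ := h.exists_diag hi ha hn
  have hW1 : ⁅W, K⁆ ≤ W := commutator_le_left_of_le_normalizer h.nK
  have n1 : Y ≤ normalizer ((⁅W, K⁆ : Subgroup G) : Set G) :=
    hY.le.trans (sup_le (normalizer_commutator_ge_right _ _) (le_normalizer_of_le_centralizer hR))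
  have h1 : K ≤ commKer ⁅⁅W, K⁆, Y⁆ ⁅W, K⁆ := hY.cov.trans (sup_le
    (le_commKer_iff.2 ⟨normalizer_commutator_ge_right _ _, (commutator_comm _ _).le⟩)
    (le_commKer_iff.2 ⟨le_normalizer_of_le_centralizer
      (hR.trans (centralizer_anti (commutator_le_left_of_le_normalizer n1))),
      commutator_le_of_le_centralizer hR _⟩))
  have h2 : ⁅W, K⁆ ≤ ⁅⁅W, K⁆, K⁆ := Sig.commutator_le_of_perfect (qs_perfect h.qs)
    (le_normalizer_of_le_centralizer (h.wab.trans (centralizer_anti
      ((commutator_le_left_of_le_normalizer (normalizer_commutator_ge_right _ _)).trans hW1))))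
    (normalizer_commutator_ge_right _ _) le_rfl
  have h3 : ⁅W, K⁆ ≤ centralizer ({a} : Set G) := h2.trans ((commutator_comm _ _).le.trans
    ((le_commKer_iff.1 h1).2.trans ((commutator_mono hW1 le_rfl).trans hY.wy)))
  have h4 : ⁅W, cj a K⁆ = ⁅W, K⁆ := by
    rw [← cj_eq_of_mem_centralizer (H := ⁅W, K⁆) (g := a) fun x hx =>
      (mem_centralizer_singleton_iff.1 (h3 hx)), cj_commutator, cj_eq_of_mem_normalizer (h.nA ha)]
  have h5 : ⁅W, cj a K⁆ = ⊥ := Sig.commutator_eq_bot_of_perfect (qs_perfect (h.qs_cj a)) (by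
    rw [h4]; refine commutator_eq_bot_iff'.2 (le_trans ?_ hR)
    simpa only [pow_one] using le_orbR (a := a) (K := K) one_pos hp.out.one_lt)
  exact h.nt (commutator_eq_bot_iff'.1 (h4 ▸ h5))

theorem gamma1 (hi : IrrKA W K A) (h2 : p ≠ 2) (ha : a ∈ A) (hn : a ∉ normalizer (K : Set G)) :
    cj (a ^ 2) K ≤ centralizer ((⁅W, K⁆ : Subgroup G) : Set G) := by
  obtain ⟨Y, hY⟩ := h.exists_diag hi ha hn
  obtain ⟨d, hd, hdK⟩ := h.exists_not_cent ha hn hY
  have hR := h.Rc ha hn
  obtain ⟨k, hk, r, hr, e⟩ := (mem_sup_of_le_normalizer_left (le_normalizer_of_le_centralizer hR)).1 (hY.le hd)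
  have h3 : 2 < p := lt_of_le_of_ne hp.out.two_le (Ne.symm h2)
  have hJK : cj (a ^ 2) K ≤ centralizer (K : Set G) := (le_orbR two_pos h3).trans hR
  have hK1 : cj a K ≤ centralizer (K : Set G) := by
    simpa only [pow_one] using (le_orbR (a := a) one_pos hp.out.one_lt).trans hR
  have hkd : k ∈ centralizer ({d} : Set G) := mem_centralizer_singleton_iff.2 (by
    rw [← e]; exact ((Commute.refl k).mul_right (comm_of_mem_cent (hR hr) hk).symm))
  have hU : ⁅W, zpowers d⁆ ≤ centralizer ({a} : Set G) := (commutator_mono le_rfl (zpowers_le.2 hd)).trans hY.wy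
  have haU : a ∈ centralizer ((⁅W, zpowers d⁆ : Subgroup G) : Set G) := fun x hx =>
    mem_centralizer_singleton_iff.1 (hU hx)
  have hkU : k ∈ normalizer ((centralizer ((⁅W, zpowers d⁆ : Subgroup G) : Set G) : Subgroup G) : Set G) :=
    le_normalizer_centralizer (le_normalizer_commutator (zpowers_le.2 (h.nK hk))
      (le_normalizer_of_cent_singleton (zpowers_le.2 hkd))) (mem_zpowers k)
  have ht : ⁅k, a⁆ ∈ centralizer ((⁅W, zpowers d⁆ : Subgroup G) : Set G) :=
    mul_mem (conj_mem_of_mem_normalizer hkU haU) (inv_mem haU)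
  have et : ⁅k, a⁆ = k * (a * k⁻¹ * a⁻¹) := by simp only [commutatorElement_def, mul_assoc]
  have htJ : ⁅k, a⁆ ∈ centralizer ((cj (a ^ 2) K : Subgroup G) : Set G) := by
    rw [et]
    refine mul_mem (le_centralizer_iff.1 hJK hk) ?_
    rw [pow_two, ← cj_cj, ← cj_centralizer]
    exact conj_mem_cj (le_centralizer_iff.1 hK1 (inv_mem hk))
  have ha2 := pow_mem ha 2
  set Wt := W ⊓ centralizer ((zpowers ⁅k, a⁆ : Subgroup G) : Set G) with hWt
  have hdW := h.Ln ha (hY.le hd)
  have h4 : ⁅W, zpowers d⁆ ≤ Wt := le_inf (commutator_le_left_of_le_normalizer (zpowers_le.2 hdW))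
    (le_centralizer_iff.1 (zpowers_le.2 ht))
  have h5 : d ∈ commKer Wt W := zpowers_le.1 (le_commKer_iff.2 ⟨le_normalizer_iff_commutator_le_left.2
    ((commutator_mono inf_le_left le_rfl).trans h4), (commutator_comm _ _).le.trans h4⟩)
  have h6 : cj (a ^ 2) K ≤ commKer Wt W := by
    refine ((sw_of_mem_normalizer (h.L_norm ha ha2 (hY.le hd))).le_of_mem (h.qs_cj _) (le_normalizer_commKer
      (le_normalizer_inf (h.cjn ha2) (le_normalizer_of_le (le_centralizer_iff.1 (zpowers_le.2 htJ))))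
      (h.cjn ha2)) h5).resolve_left fun e => hdK ?_
    rw [← cj_centralizer, mem_cj] at e
    have c : Commute d (a ^ 2) := Commute.pow_right (mem_centralizer_singleton_iff.1 (hY.ca hd)) 2
    rwa [mul_assoc, c.eq, inv_mul_cancel_left] at e
  have h7 : K ≤ centralizer ((⁅cj (a ^ 2) K, W⁆ : Subgroup G) : Set G) := by
    refine ((sw_of_mem_normalizer (g := ⁅k, a⁆) ?_).le_of_mem h.qs (le_normalizer_centralizer
      (le_normalizer_commutator (le_normalizer_of_le_centralizer (le_centralizer_iff.1 hJK)) h.nK))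
      (zpowers_le.1 (le_centralizer_iff.1 ((le_commKer_iff.1 h6).2.trans inf_le_right)))).resolve_left fun e' => hdK ?_
    · rw [et]; exact mul_mem (le_normalizer hk) (centralizer_le_normalizer _ (hK1 (conj_mem_cj (inv_mem hk))))
    · rw [et] at e'
      rw [← e]; exact mul_mem ((mul_mem_cancel_right (hK1 (conj_mem_cj (inv_mem hk)))).1 e') (hR hr)
  refine commutator_eq_bot_iff'.1 (commutator_commutator_eq_bot_of_rotate ?_ (commutator_eq_bot_iff'.2 h7))
  rw [commutator_eq_bot_iff'.2 hJK, commutator_bot_left]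

theorem two (hi : IrrKA W K A) (ha : a ∈ A) (hn : a ∉ normalizer (K : Set G)) : p = 2 := by
  by_contra h2
  refine h.delta hi ha hn (orbR_le_iff.2 fun i h0 hi' => ?_)
  obtain ⟨m, hm⟩ := hp.out.odd_of_ne_two h2
  have e : ((a ^ i) ^ (m + 1)) ^ 2 = a ^ i := by
    rw [← pow_mul (a ^ i), show (m + 1) * 2 = p + 1 by omega, pow_succ, h.pow (pow_mem ha i), one_mul]
  rw [← e]
  refine h.gamma1 hi h2 (pow_mem (pow_mem ha i) _) fun hm' => hn (mem_of_pow_mem (h.powN ha _) h0 hi' ?_)
  rw [← e]; exact pow_mem hm' 2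

theorem gamma2 (hi : IrrKA W K A) (ha : a ∈ A) (hn : a ∉ normalizer (K : Set G)) (hb : b ∈ A)
    (hJ : cj b K ≤ centralizer ((K ⊔ orbR p a K : Subgroup G) : Set G)) :
    cj b K ≤ centralizer ((⁅W, K⁆ : Subgroup G) : Set G) := by
  obtain ⟨Y, hY⟩ := h.exists_diag hi ha hn
  obtain ⟨d, hd, hdK⟩ := h.exists_not_cent ha hn hY
  have h1 : cj b K ≤ centralizer ((⁅W, Y⁆ : Subgroup G) : Set G) := by
    refine (Sw.le_of_mem (g := a) (h.qs_cj b) ?_ (le_normalizer_centralizer (le_normalizer_commutator (h.cjn hb)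
      (le_normalizer_of_le_centralizer (hJ.trans (centralizer_anti hY.le)))))
      fun x hx => mem_centralizer_singleton_iff.1 (hY.wy hx)).resolve_left fun e => hn ?_
    · rw [Sw, cj_cj, (h.comm ha hb).eq, ← cj_cj, ← cj_centralizer, cj_inj, cj_le_cj_iff]; exact h.sw a ha
    · have := cj_eq_of_mem_centralizer e
      rw [cj_cj, (h.comm ha hb).eq, ← cj_cj, cj_inj] at this
      exact mem_normalizer_iff_cj.2 this
  have h4 : ⁅W, Y⁆ ≤ W ⊓ centralizer ((cj b K : Subgroup G) : Set G) :=
    le_inf (commutator_le_left_of_le_normalizer (hY.le.trans (h.Ln ha))) (le_centralizer_iff.1 h1)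
  have h5 : Y ≤ commKer (W ⊓ centralizer ((cj b K : Subgroup G) : Set G)) W := le_commKer_iff.2
    ⟨le_normalizer_iff_commutator_le_left.2 ((commutator_mono inf_le_left le_rfl).trans h4),
      (commutator_comm _ _).le.trans h4⟩
  have h6 := ((sw_of_mem_normalizer (h.L_norm' ha (hY.le hd))).le_of_mem h.qs (le_normalizer_commKer
    (le_normalizer_inf h.nK (le_normalizer_of_le (le_centralizer_iff.1 (hJ.trans (centralizer_anti le_sup_left)))))
    h.nK) (h5 hd)).resolve_left hdK
  exact le_centralizer_iff.1 ((commutator_comm _ _).le.trans ((le_commKer_iff.1 h6).2.trans inf_le_right))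

end PG

namespace PG
omit hp
variable (h : PG 2 W K A B) (hi : IrrKA W K A) {a' w : G} {Y' : Subgroup G}
include h hi

omit h hi [Finite G] in
theorem orbR_two (a : G) (K : Subgroup G) : orbR 2 a K = cj a K :=
  le_antisymm (orbR_le_iff.2 fun i h0 hi => by rw [show i = 1 by omega, pow_one])
    (by simpa only [pow_one] using le_orbR (a := a) (K := K) one_pos one_lt_two)

theorem cj_eq (ha : a ∈ A) (hn : a ∉ normalizer (K : Set G)) (hb : b ∈ A) (hb' : b ∉ normalizer (K : Set G)) :
    cj b K = cj a K := by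
  by_contra hne
  refine h.delta hi hb hb' (orbR_two b K ▸ h.gamma2 hi ha hn hb ?_)
  rw [orbR_two, centralizer_sup']
  refine le_inf ((h.sw b hb).resolve_left fun e => hb' (mem_normalizer_iff_cj.2 e)) ?_
  rcases h.sw _ (mul_mem (inv_mem ha) hb) with e | e
  · rw [← cj_cj, cj_eq_iff, inv_inv] at e; exact absurd e hne
  · rwa [← cj_cj, cj_le_iff, inv_inv, cj_centralizer] at e

omit hi [Finite G] in
theorem sq (ha : a ∈ A) : a * a = 1 := by rw [← pow_two]; exact (isElementaryAbelian_iff.1 h.aea).2 a ha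

theorem mul_norm (ha : a ∈ A) (hn : a ∉ normalizer (K : Set G)) (hb : b ∈ A) (hb' : b ∉ normalizer (K : Set G)) :
    a * b ∈ normalizer (K : Set G) :=
  mem_normalizer_iff_cj.2 (by rw [← cj_cj, h.cj_eq hi ha hn hb hb', cj_cj, h.sq ha, cj_one])

theorem gen (ha : a ∈ A) (hn : a ∉ normalizer (K : Set G)) (ha' : a' ∈ A) (hn' : a' ∉ normalizer (K : Set G))
    (hc : a * a' ∉ centralizer (K : Set G)) (hY : Diag 2 W K a Y) (hY' : Diag 2 W K a' Y') (h1 : Y ≤ T)
    (h2 : Y' ≤ T) : K ⊔ cj a K ≤ T := by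
  have hR := h.Rc ha hn
  have c1 := hY.cov
  have c2 := hY'.cov
  rw [orbR_two] at hR c1 c2
  rw [h.cj_eq hi ha hn ha' hn'] at c2
  have c3 : cj a K ≤ Y ⊔ K := by
    have := cj_mono a c1
    rwa [cj_sup, cj_cj, h.sq ha, cj_one, cj_eq_of_mem_centralizer (H := Y)
      fun x hx => mem_centralizer_singleton_iff.1 (hY.ca hx)] at this
  have nY : Y ≤ normalizer ((cj a K : Subgroup G) : Set G) := hY.le.trans (h.L_norm ha ha)
  have nY' : Y' ≤ normalizer ((cj a K : Subgroup G) : Set G) := hY'.le.trans (h.L_norm ha' ha)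
  have c4 : cj a K ≤ T := by
    rcases qs_normal (h.qs_cj a) (inf_le_right : T ⊓ cj a K ≤ _) (c3.trans (sup_le
      (le_normalizer_inf (le_normalizer_of_le h1) nY)
      (le_normalizer_of_le_centralizer (le_centralizer_iff.1 (inf_le_right.trans hR))))) with e | e
    · exact e.ge.trans inf_le_left
    · refine absurd ?_ hc
      rw [(h.comm ha ha').eq]
      refine mem_cent_of_cover (qs_perfect h.qs) (c1.trans (sup_le_sup_left hR _)) (hY.le.trans (h.L_norm' ha))
        (h.mul_norm hi ha' hn' ha hn) fun y hy => ?_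
      have : y ∈ Y' ⊔ cj a K := (sup_le c2 le_sup_right) (orbR_two a K ▸ hY.le hy)
      obtain ⟨y', hy', s, hs, rfl⟩ := (mem_sup_of_le_normalizer_right nY').1 this
      have hs' : s ∈ centralizer ((cj a K : Subgroup G) : Set G) :=
        e ⟨(mul_mem_cancel_left (h2 hy')).1 (h1 hy), hs⟩
      have d1 : Commute (y' * s) a := mem_centralizer_singleton_iff.1 (hY.ca hy)
      have d2 : Commute y' a' := mem_centralizer_singleton_iff.1 (hY'.ca hy')
      have : ⁅y' * s, a' * a⁆ = y' * (s * (a' * s⁻¹ * a'⁻¹)) * y'⁻¹ :=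
        calc _ = y' * s * a' * (a * (y' * s)⁻¹) * a⁻¹ * a'⁻¹ := by rw [commutatorElement_def]; group
          _ = y' * s * a' * s⁻¹ * (y'⁻¹ * a'⁻¹) := by rw [← d1.inv_left.eq]; group
          _ = _ := by rw [d2.inv_inv.eq]; group
      rw [this]
      refine conj_mem_of_mem_normalizer (normalizer_le_normalizer_centralizer K (h.L_norm' ha' (hY'.le hy')))
        (mul_mem (hR hs) ?_)
      rw [← h.cj_eq hi ha hn ha' hn', ← cj_centralizer, mem_cj, inv_eq_of_mul_eq_one_left (h.sq ha')] at hs'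
      rw [inv_eq_of_mul_eq_one_left (h.sq ha')]
      have := inv_mem hs'
      rwa [mul_inv_rev, mul_inv_rev, inv_eq_of_mul_eq_one_left (h.sq ha'), ← mul_assoc] at this
  exact sup_le (c1.trans (sup_le h1 c4)) c4

theorem A_norm (ha : a ∈ A) (hn : a ∉ normalizer (K : Set G)) :
    A ≤ normalizer ((K ⊔ cj a K : Subgroup G) : Set G) := by
  refine le_normalizer_of_cj_le fun g hg => ?_
  have key : ∀ g ∈ A, cj g K ≤ K ⊔ cj a K := fun g hg => by
    by_cases e : g ∈ normalizer (K : Set G)
    · rw [cj_eq_of_mem_normalizer e]; exact le_sup_left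
    · rw [h.cj_eq hi ha hn hg e]; exact le_sup_right
  rw [cj_sup, cj_cj]; exact sup_le (key g hg) (key _ (mul_mem hg ha))

theorem e1 (ha : a ∈ A) (hn : a ∉ normalizer (K : Set G)) (ha' : a' ∈ A) (hn' : a' ∉ normalizer (K : Set G))
    (hc : a * a' ∉ centralizer (K : Set G)) : ⁅W, zpowers a⁆ ⊓ ⁅W, zpowers a'⁆ = ⊥ := by
  obtain ⟨Y, hY⟩ := h.exists_diag hi ha hn
  obtain ⟨Y', hY'⟩ := h.exists_diag hi ha' hn'
  have h1 := h.gen hi ha hn ha' hn' hc hY hY' (hY.cw.trans (centralizer_anti inf_le_left))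
    (hY'.cw.trans (centralizer_anti inf_le_right))
  rcases hi (W ⊓ centralizer ((K ⊔ cj a K : Subgroup G) : Set G)) inf_le_left
    (le_normalizer_inf h.nK (le_normalizer_centralizer (le_normalizer_of_le le_sup_left)))
    (le_normalizer_inf h.nA (le_normalizer_centralizer (h.A_norm hi ha hn))) with e | e
  · exact eq_bot_iff.2 ((le_inf (inf_le_left.trans (commutator_le_left_of_le_normalizer
      (zpowers_le.2 (h.nA ha)))) (le_centralizer_iff.1 h1)).trans e.le)
  · exact absurd (le_sup_left.trans (le_centralizer_iff.1 (e.ge.trans inf_le_right))) h.nt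

theorem e2 (ha : a ∈ A) (hn : a ∉ normalizer (K : Set G)) (ha' : a' ∈ A) (hn' : a' ∉ normalizer (K : Set G))
    (hc : a * a' ∉ centralizer (K : Set G)) (hw : w ∈ W) :
    ∃ u ∈ W ⊓ centralizer ({a} : Set G), ∃ v ∈ W ⊓ centralizer ({a'} : Set G), u * v = w := by
  obtain ⟨Y, hY⟩ := h.exists_diag hi ha hn
  obtain ⟨Y', hY'⟩ := h.exists_diag hi ha' hn'
  set U := (W ⊓ centralizer ({a} : Set G)) ⊔ (W ⊓ centralizer ({a'} : Set G)) with hU
  have hUW : U ≤ W := sup_le inf_le_left inf_le_left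
  have key : ∀ Y : Subgroup G, ⁅W, Y⁆ ≤ U → Y ≤ commKer U W := fun Y e => le_commKer_iff.2
    ⟨le_normalizer_iff_commutator_le_left.2 ((commutator_mono hUW le_rfl).trans e), (commutator_comm _ _).le.trans e⟩
  have h1 := h.gen hi ha hn ha' hn' hc hY hY'
    (key Y ((le_inf (commutator_le_left_of_le_normalizer (hY.le.trans (h.Ln ha))) hY.wy).trans le_sup_left))
    (key Y' ((le_inf (commutator_le_left_of_le_normalizer (hY'.le.trans (h.Ln ha'))) hY'.wy).trans le_sup_right))
  refine (mem_sup_of_le_normalizer_right (le_normalizer_of_le_centralizer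
    (inf_le_left.trans (h.wab.trans (centralizer_anti inf_le_left))))).1 ?_
  rcases hi ⁅K ⊔ cj a K, W⁆ (commutator_le_right_of_le_normalizer (sup_le h.nK (h.cjn ha)))
    (le_normalizer_commutator (le_normalizer_of_le le_sup_left) h.nK)
    (le_normalizer_commutator (h.A_norm hi ha hn) h.nA) with e | e
  · exact absurd (le_sup_left.trans (commutator_eq_bot_iff_le_centralizer.1 e)) h.nt
  · exact (le_commKer_iff.1 h1).2 (e.ge hw)

theorem Q1 (ha : a ∈ A) (hn : a ∉ normalizer (K : Set G)) (hw : w ∈ W) (hg : g ∈ A) : Commute ⁅w, a⁆ g := by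
  have key : ∀ g ∈ A, g ∉ normalizer (K : Set G) → Commute ⁅w, a⁆ g := by
    intro g hg hg'
    by_cases hc : g * a ∈ centralizer (K : Set G)
    · have h1 := PLocal.commElt_mem_left hw (h.nA ha)
      have h2 : Commute ⁅w, a⁆ a := by
        have e1 : a * ⁅w, a⁆ * a⁻¹ = ⁅w, a⁆⁻¹ := by
          rw [commutatorElement_inv, commutatorElement_def, commutatorElement_def,
            inv_eq_of_mul_eq_one_left (h.sq ha), mul_assoc a, mul_assoc _ a a, h.sq ha]; group
        have e2 : ⁅w, a⁆⁻¹ = ⁅w, a⁆ := inv_eq_of_mul_eq_one_left (by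
          rw [← pow_two]; exact (isElementaryAbelian_iff.1 h.ea).2 _ h1)
        exact (mul_inv_eq_iff_eq_mul.1 (e1.trans e2)).symm
      have := (comm_of_mem_cent (h.cent_le hi ⟨mul_mem hg ha, hc⟩) h1).symm.mul_right h2.inv_right
      rwa [mul_inv_cancel_right] at this
    · obtain ⟨u, hu, v, hv, rfl⟩ := h.e2 hi hg hg' ha hn hc hw
      have d1 : Commute v a := mem_centralizer_singleton_iff.1 hv.2
      have d2 : Commute u g := mem_centralizer_singleton_iff.1 hu.2
      have : ⁅u * v, a⁆ = ⁅u, a⁆ := by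
        rw [commutatorElement_def, commutatorElement_def, mul_assoc u, d1.eq]; group
      rw [this, commutatorElement_def]
      exact ((d2.mul_left (h.comm ha hg)).mul_left d2.inv_left).mul_left (h.comm ha hg).inv_left
  by_cases e : g ∈ normalizer (K : Set G)
  · have := (key (g * a) (mul_mem hg ha) fun e' => hn ((mul_mem_cancel_left e).1 e')).mul_right
      (key a ha hn).inv_right
    rwa [mul_inv_cancel_right] at this
  · exact key g hg e

theorem Q2 (ha : a ∈ A) (hn : a ∉ normalizer (K : Set G)) (ha' : a' ∈ A) (hn' : a' ∉ normalizer (K : Set G))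
    (hc : a * a' ∉ centralizer (K : Set G)) (hw : w ∈ W) (h1 : Commute w a) (h2 : Commute w a') :
    w ∈ centralizer (A : Set G) := by
  have key : ∀ g ∈ A, g ∉ normalizer (K : Set G) → Commute w g := by
    intro g hg hg'
    have hc' := h.mul_norm hi ha hn ha' hn'
    have e := h.e1 hi hg hg' (mul_mem hg (mul_mem ha ha')) (fun e => hg' ((mul_mem_cancel_right hc').1 e))
      (by rwa [← mul_assoc, h.sq hg, one_mul])
    have e' : ⁅w, g * (a * a')⁆ = ⁅w, g⁆ := by
      rw [commutatorElement_def, commutatorElement_def, ← mul_assoc w, mul_assoc _ (a * a'),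
        ← (h1.mul_right h2).inv_left.eq]; group
    exact commutatorElement_eq_one_iff_commute.1 (mem_bot.1 (e.le ⟨commutator_mem_commutator hw (mem_zpowers g),
      e' ▸ commutator_mem_commutator hw (mem_zpowers _)⟩))
  intro g hg
  by_cases e : g ∈ normalizer (K : Set G)
  · have := (key (g * a) (mul_mem hg ha) fun e' => hn ((mul_mem_cancel_left e).1 e')).mul_right h1.inv_right
    rw [mul_inv_cancel_right] at this; exact this.symm
  · exact (key g hg e).symm

theorem count (ha : a ∈ A) (hn : a ∉ normalizer (K : Set G)) : (centralizer ({a} : Set G)).relIndex W ≤ 2 := by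
  classical
  have := Fintype.ofFinite G
  set C₁ := A ⊓ centralizer (K : Set G) with hC₁
  set A₀ := A ⊓ normalizer (K : Set G) with hA₀
  set S := W ⊓ centralizer ({a} : Set G) with hS
  set F := W ⊓ centralizer (A : Set G) with hF
  have hFS : F ≤ S := inf_le_inf_left _ fun x hx => mem_centralizer_singleton_iff.2 (hx a ha).symm
  have hCA : C₁ ≤ A₀ := inf_le_inf_left _ (centralizer_le_normalizer _)
  have hnW : ∀ g ∈ A, g ∉ normalizer (K : Set G) → ¬ W ≤ centralizer ({g} : Set G) := fun g hg hg' e => by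
    rcases (h.sw g hg).le_of_mem h.qs (le_normalizer_centralizer h.nK)
      (fun x hx => mem_centralizer_singleton_iff.1 (e hx)) with e' | e'
    · exact hg' (centralizer_le_normalizer _ e')
    · exact h.nt e'
  have i1 : (normalizer (K : Set G)).relIndex A = 2 := relIndex_eq_two_iff.2 ⟨a, ha, fun b hb => by
    by_cases e : b ∈ normalizer (K : Set G)
    · exact Or.inr ⟨e, fun e' => hn ((mul_mem_cancel_left e).1 e')⟩
    · exact Or.inl ⟨h.mul_norm hi hb e ha hn, e⟩⟩
  have c1 : Nat.card A₀ * 2 = Nat.card A := by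
    rw [hA₀, inf_comm, ← i1]; exact BG.card_inf_mul_relIndex _ _
  have c2 : Nat.card C₁ * (centralizer (K : Set G)).relIndex A = Nat.card A := by
    rw [hC₁, inf_comm]; exact BG.card_inf_mul_relIndex _ _
  have c3 : Nat.card S * (centralizer ({a} : Set G)).relIndex W = Nat.card W := by
    rw [hS, inf_comm]; exact BG.card_inf_mul_relIndex _ _
  have c4 : Nat.card F * (centralizer (A : Set G)).relIndex W = Nat.card W := by
    rw [hF, inf_comm]; exact BG.card_inf_mul_relIndex _ _
  have c5 := BG.card_mul_relIndex hFS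
  have c6 := BG.card_mul_relIndex hCA
  have off := h.offA
  set m := (centralizer ({a} : Set G)).relIndex W
  set s := F.relIndex S with hs
  set n := C₁.relIndex A₀ with hn₀
  have pF : 0 < Nat.card F := Nat.card_pos
  have pC : 0 < Nat.card C₁ := Nat.card_pos
  have e1 : (centralizer (A : Set G)).relIndex W = s * m :=
    Nat.eq_of_mul_eq_mul_left pF (by rw [c4, ← c3, ← c5]; ring)
  have e2 : (centralizer (K : Set G)).relIndex A = n * 2 :=
    Nat.eq_of_mul_eq_mul_left pC (by rw [c2, ← c1, ← c6]; ring)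
  rw [e1, e2] at off
  have ps : s ≠ 0 := ri_ne _ _
  by_cases hn1 : n = 1
  · rw [hn1] at off
    exact (Nat.le_mul_of_pos_left _ (Nat.pos_of_ne_zero ps)).trans off
  obtain ⟨c₀, hc₀, hc₀'⟩ := SetLike.not_le_iff_exists.1 fun e => hn1 (relIndex_eq_one.2 e)
  have hac : ∀ c ∈ A₀, a * c ∉ normalizer (K : Set G) := fun c hc e => hn ((mul_mem_cancel_right (mem_inf.1 hc).2).1 e)
  have hac' : ∀ c ∈ A₀, c ∉ C₁ → a * (a * c) ∉ centralizer (K : Set G) := fun c hc hc' e => hc' ⟨hc.1, by
    rwa [← mul_assoc, h.sq ha, one_mul] at e⟩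
  have s2 : s ≠ 1 := fun e => by
    refine hnW _ (mul_mem ha hc₀.1) (hac _ hc₀) fun w hw => ?_
    obtain ⟨u, hu, v, hv, rfl⟩ := h.e2 hi ha hn (mul_mem ha hc₀.1) (hac _ hc₀) (hac' _ hc₀ hc₀') hw
    exact mul_mem (mem_centralizer_singleton_iff.2 ((relIndex_eq_one.1 e hu).2 _ (mul_mem ha hc₀.1)).symm) hv.2
  obtain ⟨x, hx, hxa⟩ := SetLike.not_le_iff_exists.1 (hnW a ha hn)
  have cf : ∀ H : Subgroup G, (Finset.univ.filter (· ∈ H)).card = Nat.card H := fun H => by
    rw [← Fintype.card_subtype, Nat.card_eq_fintype_card]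
  have dc := Finset.card_mul_le_card_mul (s := Finset.univ.filter (· ∈ A₀) \ Finset.univ.filter (· ∈ C₁))
    (t := Finset.univ.filter (· ∈ S)) (m := Nat.card F) (n := Nat.card C₁) (fun c u => Commute (x * u) (a * c))
    (fun c hc => by
      simp only [Finset.mem_sdiff, Finset.mem_filter, Finset.mem_univ, true_and] at hc
      obtain ⟨u, hu, v, hv, rfl⟩ := h.e2 hi ha hn (mul_mem ha hc.1.1) (hac _ hc.1) (hac' _ hc.1 hc.2) hx
      rw [← cf F]
      refine Finset.card_le_card_of_injOn (fun f => u⁻¹ * f) (fun f hf => ?_) fun f _ f' _ e => mul_left_cancel e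
      simp only [Finset.coe_filter, Finset.mem_univ, true_and, Set.mem_ofPred_eq] at hf
      simp only [Finset.bipartiteAbove, Finset.coe_filter, Finset.mem_filter, Finset.mem_univ, true_and,
        Set.mem_ofPred_eq]
      refine ⟨mul_mem (S.inv_mem hu) (hFS hf), ?_⟩
      rw [(comm_of_mem_cent (h.wab hu.1) hv.1).eq, mul_assoc, mul_inv_cancel_left]
      exact Commute.mul_left (mem_centralizer_singleton_iff.1 hv.2) (hf.2 _ (mul_mem ha hc.1.1)).symm)
    (fun u hu => by
      simp only [Finset.mem_filter, Finset.mem_univ, true_and] at hu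
      rcases (Finset.bipartiteBelow (fun c u => Commute (x * u) (a * c))
        (Finset.univ.filter (· ∈ A₀) \ Finset.univ.filter (· ∈ C₁)) u).eq_empty_or_nonempty with e | ⟨c, hc⟩
      · rw [e]; exact Nat.zero_le _
      rw [← cf C₁]
      refine Finset.card_le_card_of_injOn (fun c' => c * c') (fun c' hc' => ?_) fun f _ f' _ e => mul_left_cancel e
      simp only [Finset.bipartiteBelow, Finset.coe_filter, Finset.mem_sdiff, Finset.mem_filter, Finset.mem_univ,
        true_and, Set.mem_ofPred_eq] at hc hc' ⊢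
      refine ⟨mul_mem hc.1.1.1 hc'.1.1.1, ?_⟩
      by_contra e
      have := h.Q2 hi (mul_mem ha hc.1.1.1) (hac _ hc.1.1) (mul_mem ha hc'.1.1.1) (hac _ hc'.1.1)
        (by rwa [mul_assoc, ← mul_assoc c, (h.comm hc.1.1.1 ha).eq, ← mul_assoc, ← mul_assoc, h.sq ha, one_mul])
        (mul_mem hx hu.1) hc.2 hc'.2
      exact hxa ((mul_mem_cancel_right (mem_inf.1 hu).2).1 (hFS ⟨mul_mem hx hu.1, this⟩).2))
  rw [Finset.card_sdiff_of_subset (fun x hx => by simpa using hCA (by simpa using hx)), cf, cf, cf, ← c5, ← c6] at dc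
  have e3 : n - 1 ≤ s := by
    refine Nat.le_of_mul_le_mul_left ?_ (Nat.mul_pos pC pF)
    calc _ = (Nat.card C₁ * n - Nat.card C₁) * Nat.card F := by rw [Nat.mul_right_comm, Nat.mul_sub_one]
      _ ≤ _ := dc
      _ = _ := by ring
  have m3 : m ≠ 3 := fun e => by
    obtain ⟨j, hj⟩ := IsPGroup.iff_card.1 h.wp
    have : 3 ∣ 2 ^ j := hj ▸ e ▸ relIndex_dvd_card _ _
    exact absurd (Nat.prime_three.dvd_of_dvd_pow this) (by norm_num)
  by_contra hm
  have : s * 4 ≤ s * m := Nat.mul_le_mul_left _ (by omega)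
  omega

theorem false_two (ha : a ∈ A) (hn : a ∉ normalizer (K : Set G)) : False := by
  have hm := h.count hi ha hn
  have hK1 : cj a K ≤ centralizer (K : Set G) := (h.sw a ha).resolve_left fun e => hn (mem_normalizer_iff_cj.2 e)
  have key : ∀ k ∈ K, (orderOf k).Coprime 2 → k ^ 3 ∈ centralizer (K : Set G) := by
    intro k hk ho
    have hc := hK1 (conj_mem_cj (g := a) (inv_mem hk))
    have c := (comm_of_mem_cent hc hk).symm
    have et : ⁅k, a⁆ = k * (a * k⁻¹ * a⁻¹) := by simp only [commutatorElement_def, mul_assoc]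
    have hW := comm_mem_of_mem _ (h.nK hk) (h.nA ha)
    have h1 : ⁅k, a⁆ ^ 3 ∈ centralizer (W : Set G) := by
      refine cube_mem_cent h.ea hW (Nat.Coprime.coprime_dvd_left (orderOf_dvd_of_pow_eq_one (n := orderOf k) ?_) ho) ?_
      · rw [et, c.mul_pow, conj_pow, inv_pow, pow_orderOf_eq_one]; group
      · have : cj k (centralizer ({a} : Set G)) ⊓ centralizer ({a} : Set G) ≤ centralizer ({⁅k, a⁆} : Set G) := by
          rw [cj_centralizer_singleton]
          exact fun x hx => mem_centralizer_singleton_iff.2 (Commute.mul_right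
            (mem_centralizer_singleton_iff.1 hx.1) (Commute.inv_right (mem_centralizer_singleton_iff.1 hx.2)))
        refine (relIndex_le_of_le_left this (ri_ne _ _)).trans (relIndex_inf_le.trans ?_)
        nth_rewrite 1 [← cj_eq_of_mem_normalizer (h.nK hk)]
        rw [relIndex_cj]
        exact Nat.mul_le_mul hm hm
    rw [et, c.mul_pow] at h1
    have := ((sw_of_mem_normalizer (mul_mem (le_normalizer (pow_mem hk 3))
      (centralizer_le_normalizer _ (pow_mem hc 3)))).le_of_mem h.qs (le_normalizer_centralizer h.nK) h1).resolve_right h.nt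
    exact (mul_mem_cancel_right (pow_mem hc 3)).1 this
  refine Sig.qs_not_isSolvable h.qs (Char.isSolvable_of_two_primes (p := 2) (q := 3) fun r hr hd => ?_)
  by_contra hne
  push Not at hne
  haveI := Fact.mk hr
  obtain ⟨T, hT⟩ := exists_sylIn r K
  refine hT.ne_bot hd (Sig.sylIn_eq_bot_of_perfect (qs_perfect h.qs) hT fun k hk => ?_)
  obtain ⟨j, hj⟩ := exists_orderOf_of_isPGroup hT.pg hk
  have h3 := key k (hT.le hk) (hj ▸ ((Nat.coprime_primes hr Nat.prime_two).2 hne.1).pow_left j)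
  have : k ∈ zpowers (k ^ 3) := mem_zpowers_pow_iff.2
    (Nat.Coprime.symm (hj ▸ ((Nat.coprime_primes hr Nat.prime_three).2 hne.2).pow_left j))
  exact zpowers_le.2 h3 this

end PG

theorem PG.le_normalizer_of_irr (h : PG p W K A B) (hi : IrrKA W K A) : A ≤ normalizer (K : Set G) := fun a ha => by
  by_contra hn
  obtain rfl := h.two hi ha hn
  exact h.false_two hi ha hn

end Cfsg.Agent.Loc
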