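import Cfsg.Agent.Loc.PGV2

/-! The `P(G,V)`-theorem: best offenders normalize components (`le_normalizer_of_best`). -/

set_option autoImplicit false

namespace Cfsg.Agent.Loc

open Subgroup Cfsg
open Cfsg.Agent.Sig (qs_normal qs_perfect qs_not_le_centralizer)
open Cfsg.Agent.BG (mim mpre mker qmk Quo coset)
open Cfsg.Agent.PLocal (mu cent)
open scoped commutatorElement

universe u
variable {G : Type u} [Group G] {K N R W V Y A B T U : Subgroup G} {a b c g k : G} {p n : ℕ}

theorem relIndex_mim {G' : Type*} [Group G'] {D : Subgroup G} (f : D →* G') (X : Subgroup G') (hA : A ≤ D) :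
    X.relIndex (mim f A) = (mpre f X).relIndex A := by
  rw [BG.mim_eq_map hA, ← relIndex_comap, ← relIndex_subgroupOf hA, mpre, subgroupOf_map_subtype']

variable [Finite G] [hp : Fact p.Prime]

omit hp in
theorem PG.sub (h : PG p W K A B) (hU : U ≤ W) (h1 : K ≤ normalizer (U : Set G)) (h2 : A ≤ normalizer (U : Set G))
    (h3 : ¬ K ≤ centralizer (U : Set G)) : PG p U K A B :=
  ⟨isElementaryAbelian_of_le h.ea hU, h1, h2, h.qs, h.aea, h.sw, h3, h.BA,
    eq_bot_iff.2 ((commutator_mono (commutator_mono hU le_rfl) le_rfl).trans h.quad.le), h.Bnt,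
    (relIndex_le_of_le_right hU (ri_ne _ _)).trans h.offA, (relIndex_le_of_le_right hU (ri_ne _ _)).trans h.offB⟩

omit hp [Finite G] in
theorem PG.not_le (h : PG p W K A B) : ¬ K ≤ W := fun e => h.nt (e.trans (isElementaryAbelian_iff.1 h.ea).1)

omit hp in
theorem PG.quo (h : PG p W K A B) (hU : U ≤ W) (h2 : A ≤ normalizer (U : Set G))
    (h3 : K ≤ centralizer (U : Set G)) :
    PG p (mim (qmk U) W) (mim (qmk U) K) (mim (qmk U) A) (mim (qmk U) B) := by
  have h1 := le_normalizer_of_le_centralizer h3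
  have hW : W ≤ normalizer (U : Set G) :=
    le_normalizer_of_le_centralizer ((isElementaryAbelian_iff.1 h.ea).1.trans (centralizer_anti hU))
  have hB := h.BA.trans h2
  have key : ∀ X ≤ A, mpre (qmk U) (centralizer (mim (qmk U) K : Set (Quo U))) ⊓ X ≤ centralizer (K : Set G) := by
    intro X hX x hx
    have hz : zpowers x ≤ normalizer (U : Set G) := zpowers_le.2 (h2 (hX hx.2))
    have := (BG.quotient_cents2 hz h1).1 ((BG.sub_morphim_pre hz).2 (zpowers_le.2 hx.1))
    refine ((h.sw x (hX hx.2)).le_of_comm h.qs h1 fun k hk => ?_).resolve_right fun e => h.not_le (e.trans hU)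
    rw [← commutatorElement_inv]; exact inv_mem (this (commutator_mem_commutator (mem_zpowers x) hk))
  have off : ∀ X ≤ A, (centralizer (X : Set G)).relIndex W ≤ (centralizer (K : Set G)).relIndex X →
      (centralizer (mim (qmk U) X : Set (Quo U))).relIndex (mim (qmk U) W) ≤
        (centralizer (mim (qmk U) K : Set (Quo U))).relIndex (mim (qmk U) X) := by
    intro X hX e
    rw [relIndex_mim _ _ hW, relIndex_mim _ _ (hX.trans h2), ← inf_relIndex_right _ X]
    refine le_trans ?_ (e.trans (relIndex_le_of_le_left (key X hX) (ri_ne _ _)))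
    rw [← inf_relIndex_right (centralizer (X : Set G)) W]
    exact relIndex_le_of_le_left ((BG.sub_morphim_pre (inf_le_right.trans hW)).1 (BG.morphim_cents _ inf_le_left))
      (ri_ne _ _)
  refine ⟨BG.morphim_abelem _ h.ea, BG.morphim_norms _ h.nK, BG.morphim_norms _ h.nA,
    Sig.qs_map ((Sig.qs_subgroupOf_iff h1).2 h.qs) _ fun e => h.not_le (((BG.quotient_sub1 h1).1 e).trans hU),
    BG.morphim_abelem _ h.aea, ?_, fun e => h.nt ?_, BG.morphimS _ h.BA, ?_, fun e => h.Bnt ?_,
    off A le_rfl h.offA, off B h.BA h.offB⟩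
  · intro x hx
    obtain ⟨y, hy, rfl⟩ := BG.mem_mim.1 hx
    have e : cj (qmk U y) (mim (qmk U) K) = mim (qmk U) (cj (y : G) K) := (BG.morphimJ _ y K).symm
    rw [Sw, e]
    exact (h.sw _ hy).imp (fun e => by rw [e]) (BG.morphim_cents _)
  · have := (BG.quotient_cents2 h1 hW).1 e
    refine commutator_eq_bot_iff'.1 (Sig.commutator_eq_bot_of_perfect (qs_perfect h.qs)
      (commutator_eq_bot_iff'.2 (h3.trans (centralizer_anti ((commutator_comm _ _).le.trans this)))))
  · rw [← BG.morphimR _ hW h2, ← BG.morphimR _ ((commutator_le_left_of_le_normalizer h.nA).trans hW) hB, h.quad,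
      BG.morphim_bot]
  · exact (le_inf ((BG.sub_morphim_pre hB).1 e) le_rfl).trans (key B h.BA)

theorem PG.le_normalizer_aux (n : ℕ) : ∀ {G : Type u} [Group G] [Finite G] {W K A B : Subgroup G},
    Nat.card W = n → PG p W K A B → A ≤ normalizer (K : Set G) := by
  induction n using Nat.strong_induction_on with
  | _ n ih =>
  intro G _ _ W K A B hn h
  by_cases hi : IrrKA W K A
  · exact h.le_normalizer_of_irr hi
  simp only [IrrKA, not_forall, not_or] at hi
  obtain ⟨U, hU, h1, h2, h0, hW⟩ := hi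
  by_cases h3 : K ≤ centralizer (U : Set G)
  · have := ih _ (hn ▸ BG.ltn_quotient h0 hU) rfl (h.quo hU h2 h3)
    intro a ha
    refine mem_normalizer_iff_cj.2 ((h.sw a ha).resolve_right fun e => ?_)
    have e1 : mim (qmk U) (cj a K) = mim (qmk U) K :=
      (BG.morphimJ _ ⟨a, h2 ha⟩ K).trans (cj_eq_of_mem_normalizer (this (BG.mem_mim_of ⟨a, h2 ha⟩ ha)))
    have e2 := BG.morphim_cents (qmk U) e
    rw [e1] at e2
    exact qs_not_le_centralizer (h.quo hU h2 h3).qs e2
  · exact ih _ (hn ▸ BG.proper_card (lt_of_le_of_ne hU hW)) rfl (h.sub hU h1 h2 h3)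

omit hp in
theorem best_sub (hV : IsElementaryAbelian p V) (hA : IsBestOffenderOn p V A) (hW : W ≤ V) :
    IsBestOffenderOn p W A := by
  refine ⟨fun B hB => ?_, hA.2.1.trans (centralizer_anti hW), fun a ha => centralizer_anti hW (hA.2.2 a ha)⟩
  have h1 := hA.1 B hB
  have hAB : cent V A ≤ cent V B := PLocal.cent_anti V hB
  have h2 := card_mul_card_le (cent W B) (cent V A)
  have e : cent W B ⊓ cent V A = cent W A :=
    le_antisymm (inf_le_inf inf_le_left inf_le_right)
      (le_inf (PLocal.cent_anti W hB) (inf_le_inf_right _ hW))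
  rw [e] at h2
  have h3 : Nat.card (cent W B ⊔ cent V A : Subgroup G) ≤ Nat.card (cent V B) :=
    card_le_of_le (sup_le (inf_le_inf_right _ hW) hAB)
  apply Nat.le_of_mul_le_mul_right _ (Nat.card_pos (α := cent V A))
  calc _ = Nat.card B * (Nat.card (cent W B) * Nat.card (cent V A)) := by ring
    _ ≤ Nat.card B * (Nat.card (cent V B) * Nat.card (cent W A)) :=
      Nat.mul_le_mul_left _ (h2.trans (Nat.mul_le_mul_right _ h3))
    _ = Nat.card B * Nat.card (cent V B) * Nat.card (cent W A) := by ring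
    _ ≤ _ := Nat.mul_le_mul_right _ h1
    _ = _ := by ring

omit hp in
theorem off_of_best (hA : IsBestOffenderOn p W A) :
    (centralizer (A : Set G)).relIndex W ≤ (centralizer (W : Set G)).relIndex A := by
  have h1 := hA.1 (centralizer (W : Set G) ⊓ A) inf_le_right
  rw [inf_eq_left.2 (le_centralizer_iff.1 inf_le_left), ← BG.card_inf_mul_relIndex (centralizer (W : Set G)) A,
    ← BG.card_inf_mul_relIndex (centralizer (A : Set G)) W, inf_comm W, mul_assoc, mul_comm (relIndex _ A)] at h1
  exact Nat.le_of_mul_le_mul_left (Nat.le_of_mul_le_mul_left h1 Nat.card_pos) Nat.card_pos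

/-- The `P(G,V)`-theorem. -/
theorem le_normalizer_of_best (hV : IsElementaryAbelian p V) (hK : IsQuasisimple K) (hA : IsElementaryAbelian p A)
    (nK : K ≤ normalizer (V : Set G)) (nA : A ≤ normalizer (V : Set G)) (sw : ∀ a ∈ A, Sw K a)
    (nt : ¬ K ≤ centralizer (V : Set G)) (hb : IsBestOffenderOn p V A) : A ≤ normalizer (K : Set G) := by
  obtain ⟨W, ⟨hW, n1, n2, h3⟩, hmin⟩ := exists_minimal_mem (S := {W | W ≤ V ∧ K ≤ normalizer (W : Set G) ∧
    A ≤ normalizer (W : Set G) ∧ ¬ K ≤ centralizer (W : Set G)}) ⟨V, le_rfl, nK, nA, nt⟩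
  have hWe := isElementaryAbelian_of_le hV hW
  have hAa := (isElementaryAbelian_iff.1 hA).1
  have c1 : ∀ X ≤ A, centralizer (W : Set G) ⊓ X = centralizer (K : Set G) ⊓ X := by
    refine fun X hX => le_antisymm (fun x hx => ⟨((sw x (hX hx.2)).le_of_mem hK (le_normalizer_centralizer n1)
      hx.1).resolve_right h3, hx.2⟩) fun x hx => ⟨?_, hx.2⟩
    have hz : zpowers x ≤ A := zpowers_le.2 (hX hx.2)
    have hzK : K ≤ centralizer ((zpowers x : Subgroup G) : Set G) := le_centralizer_iff.1 (zpowers_le.2 hx.1)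
    have hzA := hAa.trans (centralizer_anti hz)
    have d1 : K ≤ centralizer ((⁅W, zpowers x⁆ : Subgroup G) : Set G) := by
      by_contra e
      have hlt := commutator_lt_of_isPGroup ((isPGroup_of_isElementaryAbelian hA).to_le hz)
        (isPGroup_of_isElementaryAbelian hWe) (hz.trans n2) fun e => h3 (by rw [e, centralizer_bot']; exact le_top)
      exact hlt.ne (hmin _ ⟨hlt.le.trans hW, le_normalizer_commutator n1 (le_normalizer_of_le_centralizer hzK),
        le_normalizer_commutator n2 (le_normalizer_of_le_centralizer hzA), e⟩ hlt.le)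
    have d2 : ⁅W, K⁆ ≤ W ⊓ centralizer ((zpowers x : Subgroup G) : Set G) :=
      le_inf (commutator_le_left_of_le_normalizer n1) (commutator_eq_bot_iff_le_centralizer.1
        (commutator_commutator_eq_bot_of_rotate
          (by rw [commutator_eq_bot_iff_le_centralizer.2 hzK, commutator_bot_left])
          (by rw [commutator_comm (zpowers x)]; exact commutator_eq_bot_iff'.2 d1)))
    have := hmin (W ⊓ centralizer ((zpowers x : Subgroup G) : Set G)) ⟨inf_le_left.trans hW,
      le_normalizer_inf n1 (le_normalizer_of_le hzK), le_normalizer_inf n2 (le_normalizer_of_le hzA),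
      fun e => h3 (commutator_eq_bot_iff'.1 (Sig.commutator_eq_bot_of_perfect (qs_perfect hK)
        (commutator_eq_bot_iff'.2 (e.trans (centralizer_anti d2)))))⟩ inf_le_left
    exact zpowers_le.1 (le_centralizer_iff.1 (this.ge.trans inf_le_right))
  have c2 : ∀ X ≤ A, (centralizer (W : Set G)).relIndex X = (centralizer (K : Set G)).relIndex X := fun X hX => by
    rw [← inf_relIndex_right, c1 X hX, inf_relIndex_right]
  have hb' := best_sub hV hb hW
  by_cases h0 : ⁅W, A⁆ = ⊥
  · exact (le_inf (commutator_eq_bot_iff'.1 h0) le_rfl).trans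
      ((c1 A le_rfl).le.trans (inf_le_left.trans (centralizer_le_normalizer _)))
  obtain ⟨t1, -, -, t2⟩ := PLocal.timmesfeld hWe n2 hb' le_rfl
  refine PG.le_normalizer_aux (p := p) _ rfl (B := cent A ⁅W, A⁆) ⟨hWe, n1, n2, hK, hA, sw, h3, inf_le_left,
    commutator_eq_bot_iff'.2 inf_le_right, fun e => t2 h0 (commutator_eq_bot_iff'.2 ?_),
    (off_of_best hb').trans (c2 A le_rfl).le, (off_of_best t1).trans (c2 _ inf_le_left).le⟩
  exact (le_inf e le_rfl).trans ((c1 _ inf_le_left).ge.trans inf_le_left)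

end Cfsg.Agent.Loc
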