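import Cfsg.Agent.Loc.PMin
import Cfsg.Agent.SolvStr.Product

/-!
# Isolated `p`-minimal subgroups (Meierfrankenfeld–Parker–Rowley)
-/

namespace Cfsg.Agent.Loc
open Subgroup Cfsg
open Cfsg.Agent.Sig (SubnIn CompIn fstarIn fitIn layerIn)
open scoped commutatorElement

variable {G : Type*} [Group G] [Finite G] {p : ℕ} [Fact p.Prime]

/-- `P` is an isolated `p`-minimal overgroup of the Sylow subgroup `S`; `L` stands for the group
generated by `N(S)` and the other `p`-minimal overgroups of `S`. -/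
structure Iso (p : ℕ) (S P M L : Subgroup G) : Prop where
  syl : SylIn p S ⊤
  um : UMax S P M
  nn : ¬ P ≤ normalizer (S : Set G)
  le : S ≤ L
  dich : ∀ H, S ≤ H → P ≤ H ∨ H ≤ L
  gen : ∀ H, S ≤ H → H ≤ P ⊔ (H ⊓ L)
  iso : ¬ pCoreOf p L ≤ pCoreOf p P

theorem exists_iso (S : Sylow p G) {P L : Subgroup G} (hSP : (S : Subgroup G) ≤ P)
    (hP : IsPMinimal p P) (hL : L = normalizer ((S : Subgroup G) : Set G) ⊔
      ⨆ P' : {P' : Subgroup G // (S : Subgroup G) ≤ P' ∧ IsPMinimal p P' ∧ P' ≠ P},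
        (P' : Subgroup G)) (hiso : ¬ pCoreOf p L ≤ pCoreOf p P) : ∃ M, Iso p S P M L := by
  obtain ⟨h1, M, hM⟩ := (isPMinimal_iff (sylIn_of_sylow_le S hSP)).1 hP
  have h2 : normalizer ((S : Subgroup G) : Set G) ≤ L := hL ▸ le_sup_left
  have h3 : ∀ P' : Subgroup G, (S : Subgroup G) ≤ P' → IsPMinimal p P' → P' ≠ P → P' ≤ L :=
    fun P' a b c => hL ▸ le_sup_of_le_right (le_iSup (fun P' : {P' : Subgroup G //
      (S : Subgroup G) ≤ P' ∧ IsPMinimal p P' ∧ P' ≠ P} => (P' : Subgroup G)) ⟨P', a, b, c⟩)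
  refine ⟨M, sylIn_top S, hM, h1, le_normalizer.trans h2, fun H hH => ?_, fun H hH => ?_, hiso⟩
  · refine or_iff_not_imp_left.2 fun h => le_of_forall_isPMinimal (sylIn_of_sylow_le S hH)
      (inf_le_right.trans h2) fun P' a b c => h3 P' a c fun e => h (e ▸ b)
  · refine le_of_forall_isPMinimal (sylIn_of_sylow_le S hH)
      ((inf_le_inf_left _ h2).trans le_sup_right) fun P' a b c => ?_
    by_cases e : P' = P
    · exact e.le.trans le_sup_left
    · exact (le_inf b (h3 P' a c e)).trans le_sup_right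

namespace Iso
variable {S P M L X : Subgroup G} (h : Iso p S P M L)
include h

theorem sylP : SylIn p S P := h.syl.mono h.um.le_top' le_top

theorem core_le : pCoreOf p L ≤ S := (h.syl.mono h.le le_top).pCoreOf_le

theorem map {G' : Type*} [Group G'] [Finite G'] {f : G →* G'} (hf : Function.Surjective f)
    (hk : IsPGroup p f.ker) : Iso p (S.map f) (P.map f) (M.map f) (L.map f) := by
  have hS : f.ker ≤ S := h.syl.le_of_le_normalizer le_top hk (by rw [normalizer_eq_top]; exact le_top)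
  have hc : ∀ H, S.map f ≤ H → S ≤ H.comap f := fun H => map_le_iff_le_comap.1
  refine ⟨map_top_of_surjective f hf ▸ h.syl.map f, h.um.map f (inf_le_left.trans (hS.trans h.um.le)),
    fun h1 => h.nn ?_, map_mono h.le, fun H hH => ?_, fun H hH => ?_, fun h1 => h.iso ?_⟩
  · have := Sig.le_normalizer_comap_inf f h1
    rwa [comap_map_eq, sup_eq_left.2 hS, inf_eq_left.2 h.um.le_top'] at this
  · exact (h.dich _ (hc H hH)).imp map_le_iff_le_comap.2
      fun h1 => map_comap_eq_self_of_surjective hf H ▸ map_mono h1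
  · have := map_mono (f := f) (h.gen _ (hc H hH))
    rw [map_comap_eq_self_of_surjective hf, Subgroup.map_sup] at this
    exact this.trans (sup_le_sup_left (le_inf (map_le_iff_le_comap.2 inf_le_left)
      (map_mono inf_le_right)) _)
  · refine le_pCoreOf_of_map hk.to_inf_left (h.core_le.trans h.um.le_top') ?_
    rwa [map_pCoreOf_of_ker hk.to_inf_left]

theorem not_le : ¬ P ≤ L := fun h1 =>
  h.iso (pCoreOf_le_pCoreOf_of_le h1 (h.core_le.trans h.um.le_top'))

theorem res_not_le : ¬ pResidualOf p P ≤ L := fun h1 =>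
  h.not_le (h.sylP.pResidualOf_sup ▸ sup_le h1 h.le)

theorem res_le (hn : S ≤ normalizer (X : Set G)) (hX : ¬ X ≤ L) : pResidualOf p P ≤ X :=
  (h.dich (X ⊔ S) le_sup_right).elim (pResidualOf_le_of_le_sup h.syl.pg hn)
    fun h1 => absurd (le_sup_left.trans h1) hX

theorem comm : ⁅pResidualOf p P, pCoreOf p L⁆ = pResidualOf p P :=
  (h.um.pIrr h.sylP h.nn).commutator_eq h.sylP h.core_le
    (h.le.trans (le_normalizer_pCoreOf p L)) h.iso

theorem normal (h1 : pResidualOf p P ≤ normalizer (X : Set G)) (h2 : L ≤ normalizer (X : Set G)) :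
    X.Normal :=
  normal_of_top_le_normalizer ((h.gen ⊤ le_top).trans (sup_le
    (h.sylP.pResidualOf_sup ▸ sup_le h1 (h.le.trans h2)) (inf_le_right.trans h2)))

theorem closure_le_comm : normalClosure (pResidualOf p P : Set G) ≤
    ⁅normalClosure (pResidualOf p P : Set G), pCoreOf p L⁆ := by
  have := h.normal (X := ⁅normalClosure (pResidualOf p P : Set G), pCoreOf p L⁆)
    (le_normalClosure.trans (normalizer_commutator_ge_left _ _))
    (le_normalizer_commutator (by rw [normalizer_eq_top]; exact le_top) (le_normalizer_pCoreOf p L))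
  exact normalClosure_le_normal (h.comm.ge.trans (commutator_mono le_normalClosure le_rfl))

theorem le_of_cent (hn : S ≤ normalizer (X : Set G))
    (hX : X ≤ centralizer (pCoreOf p L : Set G)) : X ≤ L := by
  by_contra hc
  have h1 := commutator_eq_bot_iff_le_centralizer.2 ((h.res_le hn hc).trans hX)
  rw [h.comm] at h1
  exact h.res_not_le (h1 ▸ bot_le)

theorem res_le_fstar (hO : pCoreOf p (⊤ : Subgroup G) = ⊥) : pResidualOf p P ≤ fstarIn ⊤ := by
  refine h.res_le (Sig.le_normalizer_fstarIn (le_top.trans le_normalizer)) fun h1 => h.iso ?_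
  have h2 : pCoreOf p L ⊓ fstarIn ⊤ = ⊥ := eq_bot_of_subnIn hO ((SubnIn.of_normal inf_le_right
    (le_normalizer_inf (h1.trans (le_normalizer_pCoreOf p L)) le_normalizer)).trans
      Sig.subnIn_fstarIn) (isPGroup_pCoreOf p L).to_inf_left
  rw [eq_bot_of_le_centralizer_fstarIn hO (isPGroup_pCoreOf p L) le_top
    (commutator_eq_bot_iff_le_centralizer.1 (Sig.commutator_eq_bot_of_inf_eq_bot
      (Sig.le_normalizer_fstarIn (le_top.trans le_normalizer))
      (h1.trans (le_normalizer_pCoreOf p L)) h2))]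
  exact bot_le

theorem coprime_case {Y : Subgroup G} (hY : Y = normalClosure (pResidualOf p P : Set G))
    (hc : (Nat.card Y).Coprime p) : pResidualOf p P = Y ∧ ⁅Y, Y⁆ ≤ centralizer (Y : Set G) ∧
      ∃ t : ℕ, t.Prime ∧ t ≠ p ∧ IsPGroup t Y := by
  have hn : ∀ A : Subgroup G, A ≤ normalizer (Y : Set G) := fun A => by
    rw [hY, normalizer_eq_top]; exact le_top
  have hR : pResidualOf p P ≤ Y := hY ▸ le_normalClosure
  have hYc : Y ≤ ⁅Y, pCoreOf p L⁆ := hY ▸ h.closure_le_comm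
  have hRb : pResidualOf p P ≠ ⊥ := fun e => h.res_not_le (e ▸ bot_le)
  have hcent : ∀ A ≤ Y, A ≤ L → A ≤ centralizer (pCoreOf p L : Set G) := fun A h1 h2 =>
    commutator_eq_bot_iff_le_centralizer.1 (eq_bot_iff.2 ((le_inf
      (commutator_le_right_of_le_normalizer (h2.trans (le_normalizer_pCoreOf p L)))
      ((commutator_mono h1 le_rfl).trans (commutator_le_left_of_le_normalizer (hn _)))).trans
      (inf_eq_bot_of_isPGroup_of_coprime (isPGroup_pCoreOf p L) hc).le))
  have hcop := Sig.coprime_of_isPGroup_of_coprime h.syl.pg hc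
  have hsol := Sig.isSolvable_of_isPGroup h.syl.pg
  obtain ⟨t, ht, T, hT, hST, hTL⟩ : ∃ t : ℕ, t.Prime ∧ ∃ T, SylIn t T Y ∧
      S ≤ normalizer (T : Set G) ∧ ¬ T ≤ L := by
    by_contra hcon
    refine h.res_not_le (hR.trans (Solv.le_of_forall_invariant_sylIn (hn S) hcop (Or.inl hsol)
      fun q hq T h1 h2 => by_contra fun h3 => hcon ⟨q, hq.out, T, h1, h2, h3⟩))
  haveI := Fact.mk ht
  have hRT := h.res_le hST hTL
  have hYT : Y ≤ T := by
    have hprod := SolvStr.isProd_of_coprime_relIndex hT.le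
      (inf_le_left : Y ⊓ centralizer (pCoreOf p L : Set G) ≤ Y)
      (Nat.coprime_of_dvd fun q hq h1 h2 => by
        haveI := Fact.mk hq
        by_cases e : q = t
        · exact hT.not_dvd_relIndex (e ▸ h1)
        obtain ⟨U, h3, h4⟩ := Solv.exists_invariant_sylIn (hn S) hcop (Or.inl hsol) q
        have h5 : U ≤ L := by_contra fun h5 => hRb (eq_bot_iff.2 ((le_inf (h.res_le h4 h5) hRT).trans
          (inf_eq_bot_of_isPGroup_of_coprime h3.pg
            (Sig.coprime_of_isPGroup_of_ne (Ne.symm e) hT.pg)).le))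
        exact h3.not_dvd_relIndex (h2.trans (relIndex_dvd_of_le_left _
          (le_inf h3.le (hcent U h3.le h5)))))
    refine hYc.trans ((commutator_le_of_forall_mul_centralizer fun y hy => ?_).trans
      (commutator_le_left_of_le_normalizer (h.core_le.trans hST)))
    obtain ⟨a, ha, b, hb, e⟩ := hprod.exists_mul y hy
    exact ⟨a, ha, b, hb.2, e⟩
  have hp : IsPGroup t Y := hT.pg.to_le hYT
  have hlt : Y ⊓ L < Y := lt_of_le_of_ne inf_le_left fun e =>
    h.res_not_le (hR.trans (e.ge.trans inf_le_right))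
  have hL0 : L ≤ normalizer ((Y ⊓ L : Subgroup G) : Set G) := le_normalizer_inf (hn L) le_normalizer
  have h0 : (Y ⊓ L).Normal := h.normal ((h.res_le (le_normalizer_inf (hn S)
    (le_normalizer_normalizer (h.le.trans hL0))) fun h1 =>
      (lt_inf_normalizer hp hlt).not_ge (le_inf inf_le_left h1)).trans inf_le_right) hL0
  have hn0 : ∀ A : Subgroup G, A ≤ normalizer ((Y ⊓ L : Subgroup G) : Set G) := fun A => by
    rw [normalizer_eq_top]; exact le_top
  have hYS : Y ⊓ S = ⊥ := inf_comm S Y ▸ inf_eq_bot_of_isPGroup_of_coprime h.syl.pg hc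
  have hYR : Y ≤ pResidualOf p P := by
    have h1 : Y ≤ (Y ⊓ L) ⊔ P := le_sup_left.trans ((h.gen (Y ⊔ S) le_sup_right).trans
      (sup_le le_sup_right (by
        rw [sup_inf_of_le_right (hn S) h.le]
        exact sup_le_sup_left h.um.le_top' _)))
    have h2 : P ⊓ Y = pResidualOf p P := by
      conv_lhs => rw [← h.sylP.pResidualOf_sup]
      rw [sup_inf_of_le_left (h.um.le_top'.trans (le_normalizer_pResidualOf p P)) hR,
        inf_comm, hYS, sup_bot_eq]
    have h3 : Y = (Y ⊓ L) ⊔ pResidualOf p P := by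
      rw [← h2, ← sup_inf_of_le_left (hn0 P) inf_le_left, inf_eq_right.2 h1]
    refine hYc.trans ((commutator_le_of_forall_mul_centralizer fun y hy => ?_).trans h.comm.le)
    rw [h3, sup_comm] at hy
    obtain ⟨a, ha, b, hb, e⟩ := (mem_sup_of_le_normalizer_right (hn0 _)).1 hy
    exact ⟨a, ha, b, hcent _ inf_le_left inf_le_right hb, e.symm⟩
  refine ⟨le_antisymm hR hYR, ?_, t, ht, fun e => hRb (eq_bot_of_isPGroup_of_coprime
    (hp.to_le hR) (by rw [e]; exact Sig.coprime_card_of_le hR hc)), hp⟩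
  have h1 : ⁅Y, Y⁆ ≤ L := by_contra fun h1 =>
    (commutator_lt_of_isPGroup hp hp (hn Y) fun e => hRb (eq_bot_iff.2 (e ▸ hR))).not_ge
      (hYR.trans (h.res_le (le_normalizer_commutator (hn S) (hn S)) h1))
  refine (le_inf (commutator_le_left_of_le_normalizer (hn Y)) h1).trans
    (le_centralizer_iff.1 (hYc.trans ((commutator_mono le_rfl (le_centralizer_iff.1
      (hcent _ inf_le_left inf_le_right))).trans (commutator_le_right_of_le_normalizer
        (le_normalizer_centralizer (hn0 Y))))))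

theorem layer_case (hO : pCoreOf p (⊤ : Subgroup G) = ⊥) {Y : Subgroup G}
    (hY : Y = normalClosure (pResidualOf p P : Set G)) (hc : ¬ (Nat.card Y).Coprime p) :
    layerIn Y = Y ∧ ∀ K₁ K₂, CompIn K₁ Y → CompIn K₂ Y → ∃ s ∈ S, K₂ = cj s K₁ := by
  have hYn : Y.Normal := hY ▸ normalClosure_normal
  have hsub : SubnIn Y ⊤ := SubnIn.of_normal le_top (normalizer_eq_top_iff.2 hYn).ge
  have hR : pResidualOf p P ≤ Y := hY ▸ le_normalClosure
  have htop : ∀ A : Subgroup G, A ≤ normalizer ((⊤ : Subgroup G) : Set G) := fun A =>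
    le_top.trans le_normalizer
  have hF : fitIn (⊤ : Subgroup G) ≤ L := by_contra fun h1 => by
    have := normal_of_top_le_normalizer (Sig.le_normalizer_fitIn (htop ⊤))
    exact hc (Sig.coprime_card_of_le (hY ▸ normalClosure_le_normal
      (h.res_le (Sig.le_normalizer_fitIn (htop S)) h1)) (coprime_fitIn hO))
  obtain ⟨K, hK, hKL⟩ : ∃ K, CompIn K ⊤ ∧ ¬ K ≤ L := by
    by_contra hcon
    refine h.res_not_le ((h.res_le_fstar hO).trans ?_)
    rw [Sig.fstarIn_eq]
    exact sup_le (Sig.layerIn_le_iff.2 fun K hK => by_contra fun h1 => hcon ⟨K, hK, h1⟩) hF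
  have hcj : ∀ {K : Subgroup G} (g : G), CompIn K ⊤ → CompIn (cj g K) ⊤ := fun g hK =>
    hK.conj (le_normalizer (mem_top g))
  have horb : ∀ K, CompIn K ⊤ → ¬ K ≤ L → pResidualOf p P ≤ sSup {X | ∃ s ∈ S, X = cj s K} :=
    fun K hK hKL => h.res_le (Sig.le_normalizer_sSup fun g hg X ⟨s, hs, e⟩ =>
      le_sSup ⟨g * s, mul_mem hg hs, by rw [e, cj_cj]⟩)
      fun h1 => hKL ((le_sSup (s := {X | ∃ s ∈ S, X = cj s K})
        ⟨1, one_mem _, (cj_one K).symm⟩).trans h1)
  have hcomp : ∀ K, CompIn K ⊤ → ∀ X ∈ {X | ∃ s ∈ S, X = cj s K}, CompIn X ⊤ :=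
    fun K hK X ⟨s, _, e⟩ => e ▸ hcj s hK
  have hlay : ∀ K, CompIn K ⊤ → sSup {X | ∃ s ∈ S, X = cj s K} ≤ layerIn ⊤ := fun K hK =>
    sSup_le fun X hX => (hcomp K hK X hX).le_layerIn
  have hZ : ∀ A : Subgroup G, pResidualOf p P ≤ A → SubnIn A ⊤ →
      ¬ pResidualOf p P ≤ centralizer (A : Set G) := fun A h1 h2 h3 =>
    h.res_not_le ((le_inf h1 h3).trans ((Sig.center_le_fitIn h2).trans hF))
  have hsn : SubnIn (sSup {X | ∃ s ∈ S, X = cj s K}) ⊤ :=
    subnIn_sSup fun X hX => (hcomp K hK X hX).subnIn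
  have huniq : ∀ K', CompIn K' ⊤ → ¬ K' ≤ L → ∃ s ∈ S, K' = cj s K := fun K' hK' hK'L => by
    by_contra hcon
    refine hZ _ (horb K hK hKL) hsn ((horb K' hK' hK'L).trans
      (commutator_eq_bot_iff_le_centralizer.1 (Sig.commutator_sSup_compIn_eq_bot (hcomp K' hK')
        (hcomp K hK) ?_)))
    rintro X ⟨s, hs, rfl⟩ ⟨u, hu, e⟩
    exact hcon ⟨s⁻¹ * u, mul_mem (inv_mem hs) hu, by rw [← cj_cj, ← e, cj_inv_cj]⟩
  have hnorm : (sSup {X | ∃ s ∈ S, X = cj s K}).Normal := by
    refine h.normal ((horb K hK hKL).trans le_normalizer) (Sig.le_normalizer_sSup ?_)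
    rintro g hg X ⟨s, hs, rfl⟩
    refine le_sSup (huniq _ (hcj g (hcj s hK)) fun h1 => hKL ?_)
    rwa [cj_cj, cj_le_iff, cj_eq_of_mem (inv_mem (mul_mem hg (h.le hs)))] at h1
  have hYE : Y ≤ sSup {X | ∃ s ∈ S, X = cj s K} := hY ▸ normalClosure_le_normal (horb K hK hKL)
  have hKY : K ≤ Y := by
    by_contra hcon
    refine hZ _ (horb K hK hKL) hsn (hR.trans (le_centralizer_iff.1 (sSup_le ?_)))
    rintro X ⟨s, hs, rfl⟩
    refine commutator_eq_bot_iff_le_centralizer.1
      (((hcj s hK).le_or_commutator hsub).resolve_left fun h1 => hcon ?_)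
    rwa [cj_le_iff, cj_eq_of_normal] at h1
  have hmem : ∀ K', CompIn K' Y → ∃ s ∈ S, K' = cj s K := fun K' hK' =>
    (hK'.trans hsub).mem_of_le_sSup (hcomp K hK) (hK'.le.trans hYE)
  refine ⟨le_antisymm (Sig.layerIn_le Y) (hYE.trans (sSup_le ?_)), fun K₁ K₂ h1 h2 => ?_⟩
  · rintro X ⟨s, hs, rfl⟩
    exact ((hcj s hK).restrict (by rwa [cj_le_iff, cj_eq_of_normal]) le_top).le_layerIn
  · obtain ⟨s, hs, rfl⟩ := hmem K₁ h1
    obtain ⟨u, hu, rfl⟩ := hmem K₂ h2
    exact ⟨u * s⁻¹, mul_mem hu (inv_mem hs), by rw [cj_cj, inv_mul_cancel_right]⟩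

theorem main {Y : Subgroup G} (hY : Y = normalClosure (pResidualOf p P : Set G))
    [(pCore p G).Normal] [(pCore p Y).Normal] :
    pResidualOf p P ≤ (generalizedFittingSubgroup (G ⧸ pCore p G)).comap
      (QuotientGroup.mk' (pCore p G)) ∧
    ((pResidualOf p P = Y ∧ ⁅⁅(⊤ : Subgroup (Y ⧸ pCore p Y)), (⊤ : Subgroup (Y ⧸ pCore p Y))⁆,
        (⊤ : Subgroup (Y ⧸ pCore p Y))⁆ = ⊥ ∧
      ∃ t : ℕ, t.Prime ∧ t ≠ p ∧ IsPGroup t (Y ⧸ pCore p Y)) ∨
    (p ∣ Nat.card (Y ⧸ pCore p Y) ∧ layer (Y ⧸ pCore p Y) = ⊤ ∧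
      ∀ K₁ K₂ : Subgroup (Y ⧸ pCore p Y), IsComponent K₁ → IsComponent K₂ → ∃ s ∈ S,
        (K₂.comap (QuotientGroup.mk' (pCore p Y))).map Y.subtype =
          cj s ((K₁.comap (QuotientGroup.mk' (pCore p Y))).map Y.subtype))) := by
  set f := QuotientGroup.mk' (pCore p G) with hf
  have hs : Function.Surjective f := QuotientGroup.mk'_surjective _
  have hk : f.ker = pCore p G := QuotientGroup.ker_mk' _
  have hkp : IsPGroup p f.ker := by rw [hk]; exact isPGroup_pCore p G
  have h' := h.map hs hkp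
  have hO : pCoreOf p (⊤ : Subgroup (G ⧸ pCore p G)) = ⊥ := by
    rw [← map_top_of_surjective f hs, ← map_pCoreOf_of_ker hkp.to_inf_left, pCoreOf_top,
      Subgroup.map_eq_bot_iff, hk]
  have hYn : Y.Normal := hY ▸ normalClosure_normal
  have hY' : Y.map f = normalClosure (pResidualOf p (P.map f) : Set _) := by
    rw [hY, map_normalClosure _ _ hs, ← map_pResidualOf, coe_map]
  have hker : pCore p Y = (f.comp Y.subtype).ker := by
    rw [← MonoidHom.comap_ker, hk, ← subgroupOf_map_subtype' (pCore p Y), ← pCoreOf_def,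
      pCoreOf_eq_inf_of_normal le_top (normalizer_eq_top_iff.2 hYn).ge, pCoreOf_top,
      inf_subgroupOf_right]
    rfl
  let φ := QuotientGroup.lift (pCore p Y) (f.comp Y.subtype) hker.le
  have hφ : Function.Injective φ := (QuotientGroup.injective_lift_iff _ _ _).2 hker
  have hc : φ.comp (QuotientGroup.mk' (pCore p Y)) = f.comp Y.subtype := by ext; rfl
  have ht : (⊤ : Subgroup _).map φ = Y.map f := by
    rw [← map_top_of_surjective _ (QuotientGroup.mk'_surjective (pCore p Y)), map_map, hc,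
      ← map_map, Sig.top_map_subtype]
  have hcard : Nat.card (Y.map f) = Nat.card (Y ⧸ pCore p Y) := by
    rw [← ht, card_map_of_injective hφ, card_top]
  refine ⟨by rw [← map_le_iff_le_comap, map_pResidualOf, ← Sig.fstarIn_top]; exact h'.res_le_fstar hO, ?_⟩
  by_cases hcop : (Nat.card (Y.map f)).Coprime p
  · obtain ⟨h1, h2, t, h3, h4, h5⟩ := h'.coprime_case hY' hcop
    refine Or.inl ⟨le_antisymm (hY ▸ le_normalClosure) ?_, ?_, t, h3, h4, ?_⟩
    · have h6 : Y ≤ P := by
        have := comap_mono (f := f) (h1.ge.trans (pResidualOf_le p _))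
        rw [comap_map_eq f P, sup_eq_left.2 ((h.syl.le_of_le_normalizer le_top hkp
          (by rw [normalizer_eq_top]; exact le_top)).trans h.um.le_top')] at this
        exact (le_comap_map f Y).trans this
      have h7 : (pResidualOf p Y).Normal := normal_of_top_le_normalizer
        ((normalizer_eq_top_iff.2 hYn).ge.trans (normalizer_le_normalizer_pResidualOf p Y))
      refine le_trans ?_ (pResidualOf_mono h6)
      conv_lhs => rw [hY]
      exact normalClosure_le_normal ((pResidualOf_pResidualOf p P).ge.trans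
        (pResidualOf_mono (hY ▸ le_normalClosure)))
    · rw [← Subgroup.map_eq_bot_iff_of_injective _ hφ,
        map_commutator, map_commutator, ht, commutator_eq_bot_iff_le_centralizer]
      exact h2
    · rw [← ht, ← Sig.isPGroup_map_iff hφ] at h5
      exact h5.of_equiv topEquiv
  · obtain ⟨h1, h2⟩ := h'.layer_case hO hY' hcop
    have hK : ∀ K : Subgroup (Y ⧸ pCore p Y), (K.comap (QuotientGroup.mk' (pCore p Y))).map
        Y.subtype = (K.map φ).comap f ⊓ Y := fun K => by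
      rw [← subgroupOf_map_subtype, subgroupOf, comap_comap, ← hc, ← comap_comap,
        comap_map_eq_self_of_injective hφ]
    refine Or.inr ⟨?_, ?_, fun K₁ K₂ h3 h4 => ?_⟩
    · rw [← hcard]
      exact by_contra fun h3 => hcop ((Nat.Prime.coprime_iff_not_dvd Fact.out).2 h3).symm
    · rw [← ht, Sig.layerIn_map_of_injective hφ, Sig.layerIn_top] at h1
      exact map_injective hφ h1
    · obtain ⟨_, ⟨s, hs, rfl⟩, e⟩ := h2 _ _ (ht ▸ (Sig.compIn_top_iff.2 h3).map_of_injective hφ)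
        (ht ▸ (Sig.compIn_top_iff.2 h4).map_of_injective hφ)
      exact ⟨s, hs, by rw [hK, hK, e, comap_cj, cj_inf, cj_eq_of_normal s Y]⟩

end Iso

end Cfsg.Agent.Loc
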