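import Cfsg.Agent.Loc.Sims2
import Cfsg.Agent.S4208
import Cfsg.Agent.Classical.PGL2Dih
import Cfsg.Agent.PLocal.Thompson

/-! Sims' lemma for a subgroup that is dihedral modulo its largest normal `2`-subgroup. -/
set_option autoImplicit false
namespace Cfsg.Agent.Loc
open Subgroup Cfsg
open scoped commutatorElement

variable {G : Type*} [Group G] [Finite G] {A H P Q Z : Subgroup G} {y : G} {n : ℕ}

theorem SC.of_map {G' : Type*} [Group G'] {f : G →* G'} (hf : Function.Injective f)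
    (s : SC (P.map f) (Q.map f) (A.map f)) : SC P Q A := by
  have ea : ∀ X : Subgroup G, IsElementaryAbelian 2 (X.map f) → IsElementaryAbelian 2 X := fun X h =>
    ea_of_mul_self fun x hx => hf (by rw [map_mul, map_one, ← pow_two, h.2 _ (mem_map_of_mem f hx)])
  refine ⟨ea _ s.ea, card_map_of_injective hf ▸ s.card, ?a,
    s.alt.imp (fun k => ⟨card_map_of_injective hf ▸ k.1, ea _ k.2⟩) fun k e => k ?b, ?c⟩
  · obtain ⟨_, ⟨x, hx, rfl⟩, h1, h2⟩ := s.inv
    exact ⟨x, hx, fun k => h1 (mem_map_of_mem f k), hf (by rw [map_mul, h2, map_one])⟩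
  · obtain ⟨Z, l, c, k⟩ := s.exZ
    obtain ⟨Z, rfl⟩ : ∃ Y : Subgroup G, Y.map f = Z := ⟨_, map_comap_eq_self (l.trans (map_le_range f Q))⟩
    exact ⟨Z, (map_le_map_iff_of_injective hf).1 l, (map_le_centralizer_iff hf).1 c, by
      rwa [card_map_of_injective hf, card_map_of_injective hf] at k⟩
  · rintro _ ⟨⟨x, hx, rfl⟩, hc⟩ _ ⟨a, ha, rfl⟩
    rw [← map_mul, e ⟨hx, fun y hy => hf (by simpa using hc _ (mem_map_of_mem f hy))⟩ a ha, map_mul]

theorem dih_setup (hn : 2 ≤ n) (e : G ⧸ pCore 2 G ≃* DihedralGroup n) (hP : SylIn 2 P ⊤) :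
    (pCore 2 G).relIndex P = 2 ∧ ∃ h, P ⊔ cj h P = ⊤ ∧ P ⊓ cj h P = pCore 2 G := by
  obtain ⟨t, r, t2, tr, ro, nt, hd⟩ := Invol.exists_of_equiv_dihedral (D := ⊤) (topEquiv.trans e)
  have cD : Nat.card (G ⧸ pCore 2 G) = 2 * n := (Nat.card_congr e.toEquiv).trans DihedralGroup.nat_card
  have od : ¬ 2 ∣ n := by
    rintro ⟨m, rfl⟩
    have z2 : (r ^ m) ^ 2 ^ 1 = 1 := by rw [pow_one, ← pow_mul, mul_comm, ← ro, pow_orderOf_eq_one]
    have c : r ^ m ∈ center _ := mem_center_iff.2 fun d => by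
      have ct : Commute t (r ^ m) := by
        rw [Commute, SemiconjBy, ← mul_inv_eq_iff_eq_mul, ← conj_pow, tr, inv_pow, inv_eq_iff_mul_eq_one, ← pow_two]
        exact z2
      obtain ⟨k, rfl | rfl⟩ := (hd d).1 (mem_top d)
      exacts [((Commute.refl r).zpow_left k).pow_right m, ct.mul_left (((Commute.refl r).zpow_left k).pow_right m)]
    have := le_pCore (normal_of_top_le_normalizer (le_normalizer_of_le_centralizer (le_centralizer_iff.1
      ((zpowers_le.2 c).trans (center_le_centralizer _))))) (isPGroup_zpowers_of_pow z2) (mem_zpowers _)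
    rw [pCore_quotient_pCore, mem_bot] at this
    exact pow_ne_one_of_lt_orderOf (by omega) (by omega) this
  have sy : ∀ u : G ⧸ pCore 2 G, u * u = 1 → u ∉ zpowers r → SylIn 2 (zpowers u) ⊤ ∧ Nat.card (zpowers u) = 2 :=
    fun u u2 hu => by
      have c : Nat.card (zpowers u) = 2 := by
        rw [Nat.card_zpowers, orderOf_eq_prime ((pow_two u).trans u2) fun k => hu (k ▸ one_mem _)]
      refine ⟨sylIn_of_not_dvd_relIndex le_top (IsPGroup.of_card (n := 1) c) ?_, c⟩
      have := card_mul_index (zpowers u)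
      rw [relIndex_top_right, show (zpowers u).index = n by rw [c, cD] at this; omega]
      exact od
  have s0 := hP.map (QuotientGroup.mk' (pCore 2 G))
  rw [map_top_of_surjective _ (QuotientGroup.mk'_surjective _)] at s0
  have c0 := s0.card_eq (sy t t2 nt).1
  rw [(sy t t2 nt).2] at c0
  have hi : (pCore 2 G).relIndex P = 2 := by rwa [← relIndex_ker, QuotientGroup.ker_mk'] at c0
  obtain ⟨d, -, e1⟩ := (sy t t2 nt).1.exists_conj s0
  obtain ⟨d', -, e2⟩ := s0.exists_conj ((sy (t * r) (by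
    rw [inv_eq_of_mul_eq_one_right t2] at tr
    rw [← mul_assoc, tr, inv_mul_cancel]) fun k =>
      nt ((mul_mem_cancel_right (mem_zpowers r)).1 k)).1.conj_of_mem (mem_top d))
  obtain ⟨h, rfl⟩ := QuotientGroup.mk'_surjective _ d'
  have lQ : pCore 2 G ≤ P := pCoreOf_top 2 G ▸ hP.pCoreOf_le
  have top : (P ⊔ cj h P).map (QuotientGroup.mk' (pCore 2 G)) = ⊤ := by
    rw [Subgroup.map_sup, map_cj, e2, ← e1, ← cj_sup, cj_eq_top_iff, eq_top_iff]
    intro x hx
    have m1 := (le_sup_left : _ ≤ zpowers t ⊔ zpowers (t * r)) (mem_zpowers t)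
    have m2 := (mul_mem_cancel_left m1).1 ((le_sup_right : _ ≤ zpowers t ⊔ zpowers (t * r)) (mem_zpowers _))
    obtain ⟨k, rfl | rfl⟩ := (hd x).1 hx
    exacts [zpow_mem m2 k, mul_mem m1 (zpow_mem m2 k)]
  refine ⟨hi, h, ?_, (eq_or_eq_of_relIndex_prime Nat.prime_two hi (le_inf lQ ((cj_eq_of_normal h _).ge.trans
    (cj_mono h lQ))) inf_le_left).resolve_right fun k => ?_⟩
  · have := comap_map_eq_self (f := QuotientGroup.mk' (pCore 2 G)) (H := P ⊔ cj h P)
      ((QuotientGroup.ker_mk' _).le.trans (lQ.trans le_sup_left))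
    rw [← this, top, comap_top]
  · rw [← eq_of_le_of_card_ge (inf_eq_left.1 k) (card_cj _ _).le, sup_idem] at top
    rw [top, card_top] at c0
    omega

theorem idx_six (hP : SylIn 2 P ⊤) (hi : Q.relIndex P = 2) [Q.Normal] (hQ : Q ≤ P) (hc : centralizer (Q : Set G) = Q)
    (h8 : Nat.card Q ≤ 8) (hZ : Z ≤ Q) (cZ : Z ≤ centralizer ((⊤ : Subgroup G) : Set G))
    (h4 : Nat.card Q ≤ 4 * Nat.card Z) (ht : P ≠ ⊤) : Q.index = 6 := by
  have pQ := hP.pg.to_le hQ
  obtain ⟨k, hk⟩ := pQ.exists_card_eq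
  obtain ⟨r, hr, hr'⟩ := (Nat.dvd_prime_pow Nat.prime_two).1 (hk ▸ (frattini Q).index_dvd_card)
  have k3 : k ≤ 3 := (Nat.pow_le_pow_iff_right one_lt_two).1 (hk ▸ h8)
  have d1 := (BG.relIndex_cent_dvd_Aut (A := ⊤) (B := Q) (by rw [normalizer_eq_top])).trans (S4208.result hk hr')
  have d2 : 2 ^ (r * (k - r)) * ∏ i ∈ Finset.range r, (2 ^ r - 2 ^ i) ∣ 8 * 21 := by
    interval_cases k <;> interval_cases r <;> decide
  have e := relIndex_mul_index hQ
  rw [hc, relIndex_top_right, ← e, hi] at d1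
  have od := hP.not_dvd_relIndex
  rw [relIndex_top_right] at od
  have d3 : P.index ∣ 21 := (Nat.Coprime.pow_right 3 ((Nat.prime_two.coprime_iff_not_dvd.2 od).symm)).dvd_of_dvd_mul_left
    ((dvd_mul_left _ _).trans (d1.trans d2))
  have n7 : ¬ 7 ∣ P.index := fun h7 => by
    have : Fact (Nat.Prime 7) := ⟨by norm_num⟩
    obtain ⟨u, hu⟩ := exists_prime_orderOf_dvd_card' 7 (h7.trans P.index_dvd_card)
    have m := card_modEq_cent (isPGroup_zpowers_of_orderOf (k := 1) (hu.trans (pow_one 7).symm))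
      (N := Q) (by rw [normalizer_eq_top]; exact le_top)
    have h2 : Nat.card (Q ⊓ centralizer (zpowers u : Set G) : Subgroup G) ≠ Nat.card Q := fun e' => by
      have := hc.le (le_centralizer_iff.1 ((eq_of_le_of_card_ge inf_le_left e'.ge).ge.trans inf_le_right)
        (mem_zpowers u))
      have := (hu ▸ orderOf_dvd_natCard Q this).trans hk.dvd
      interval_cases k <;> omega
    have h3 := card_le_of_le (le_inf hZ (cZ.trans (centralizer_anti (le_top : zpowers u ≤ ⊤))))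
    obtain ⟨j, hj, hj'⟩ := (Nat.dvd_prime_pow Nat.prime_two).1 (hk ▸ card_dvd_of_le
      (inf_le_left : Q ⊓ centralizer (zpowers u : Set G) ≤ Q))
    rw [hj'] at m h2 h3
    rw [hk] at m h2 h4
    interval_cases k <;> interval_cases j <;> simp_all [Nat.ModEq] <;> omega
  have := index_eq_one.not.2 ht
  have := Nat.le_of_dvd (by norm_num) d3
  rw [← e, hi]
  generalize P.index = m at *
  interval_cases m <;> omega

theorem SC.quot [Group.IsSolvable G] (hP : SylIn 2 P ⊤) (s : SC P (pCore 2 G) ⊤) (hi : (pCore 2 G).relIndex P = 2)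
    {h : G} (hh : P ⊔ cj h P = ⊤) (hQ : pCore 2 G ≠ ⊥) :
    Nonempty (G ⧸ oddCore G ≃* Multiplicative (ZMod 2) × Multiplicative (ZMod 2)) ∨
      Nonempty (G ⧸ oddCore G ≃* Equiv.Perm (Fin 4)) ∨
      Nonempty (G ⧸ oddCore G ≃* Equiv.Perm (Fin 4) × Multiplicative (ZMod 2)) := by
  set f := QuotientGroup.mk' (oddCore G)
  have fs : Function.Surjective f := QuotientGroup.mk'_surjective _
  have lQ : pCore 2 G ≤ P := pCoreOf_top 2 G ▸ hP.pCoreOf_le
  have inj : P ⊓ f.ker = ⊥ := by rw [QuotientGroup.ker_mk']; exact Solv.inf_pPrimeCore_eq_bot hP.pg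
  have cP := PLocal.card_map_of_injOn inj le_rfl
  have cQ := PLocal.card_map_of_injOn inj lQ
  have s0 := hP.map f
  rw [map_top_of_surjective _ fs] at s0
  have e1 := Solv.card_mul_relIndex lQ
  have hi' : ((pCore 2 G).map f).relIndex (P.map f) = 2 := by
    have := Solv.card_mul_relIndex (map_mono lQ : (pCore 2 G).map f ≤ _)
    rw [cP, cQ, ← e1, hi] at this
    exact Nat.eq_of_mul_eq_mul_left Nat.card_pos this
  by_cases ht : P.map f = ⊤
  · have c : oddCore G ≤ centralizer (pCore 2 G : Set G) := commutator_eq_bot_iff_le_centralizer.1 (le_bot_iff.1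
      ((commutator_le_inf _ _).trans (by rw [inf_comm]; exact Solv.pCore_inf_pPrimeCore.le)))
    have e2 : P ⊔ oddCore G = ⊤ := by rw [← QuotientGroup.ker_mk' (oddCore G), ← comap_map_eq, ht, comap_top]
    obtain ⟨h2, ea⟩ := s.alt.resolve_right (not_not.2 (by
      refine le_trans ?_ (centralizer_anti e2.ge)
      rw [centralizer_sup']
      exact le_inf inf_le_right (inf_le_left.trans (le_centralizer_iff.1 c))))
    have := (one_lt_card_iff_ne_bot _).2 hQ
    rw [ht, card_top] at cP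
    rw [hi] at e1
    have ea' := ht ▸ isElementaryAbelian_map f ea
    have K : IsKleinFour (G ⧸ oddCore G) := ⟨by omega, by
      have : Nontrivial (G ⧸ oddCore G) := Finite.one_lt_card_iff_nontrivial.1 (by omega)
      exact (Monoid.exponent_eq_prime_iff Nat.prime_two).2 fun g hg => orderOf_eq_prime (ea'.2 g (mem_top g)) hg⟩
    have K' : IsKleinFour (Multiplicative (ZMod 2) × Multiplicative (ZMod 2)) := ⟨by simp, by
      simp [Monoid.exponent_prod]⟩
    exact Or.inl IsKleinFour.nonempty_mulEquiv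
  have e2 : pCore 2 (G ⧸ oddCore G) = (pCore 2 G).map f := (eq_or_eq_of_relIndex_prime Nat.prime_two hi'
    (map_pCore_le_of_surjective fs) ((pCoreOf_top 2 _).ge.trans s0.pCoreOf_le)).resolve_right fun k => ht (by
      rw [eq_top_iff, ← map_top_of_surjective _ fs, ← hh, Subgroup.map_sup, map_cj, ← k, cj_eq_of_normal, sup_idem])
  have ch := Solv.centralizer_pCore_le (Solv.pPrimeCore_quotient_pPrimeCore 2 G)
  have ea := e2 ▸ isElementaryAbelian_map f s.ea
  obtain ⟨Z, z1, z2, z3⟩ := s.exZ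
  obtain ⟨t, t1, t2, t3⟩ := s.inv
  have h8 := s.card
  rw [← cQ, ← e2] at h8 z3
  have i6 := idx_six s0 (e2 ▸ hi') (e2 ▸ map_mono lQ) (le_antisymm ch (isElementaryAbelian_iff.1 ea).1) h8
    (e2 ▸ map_mono z1) (by
      rintro _ ⟨x, hx, rfl⟩ a -
      obtain ⟨a, rfl⟩ := fs a
      rw [← map_mul, z2 hx a (mem_top a), map_mul]) (by rwa [PLocal.card_map_of_injOn inj (z1.trans lQ)]) ht
  refine Or.inr ((iso_of_small_top (s3_of_relIndex s0 (by rwa [pCoreOf_top, relIndex_top_right])) (chP_top.2 ch) ?_).imp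
    And.right fun ⟨_, ⟨e⟩⟩ => ⟨e.trans MulEquiv.prodComm⟩)
  rw [Small, pCoreOf_top]
  refine ⟨ea, h8, f t, mem_top _, fun k => t2 ?_, by rw [← map_mul, t3, map_one]⟩
  obtain ⟨x, hx, e⟩ := e2.le k
  have : x⁻¹ * t ∈ P ⊓ f.ker := mem_inf.2 ⟨mul_mem (inv_mem (lQ hx)) t1, by
    rw [MonoidHom.mem_ker, map_mul, map_inv, e, inv_mul_cancel]⟩
  rw [inj, mem_bot, inv_mul_eq_one] at this
  exact this ▸ hx

theorem sims_dih (hn : 2 ≤ n) (e : H ⧸ pCore 2 H ≃* DihedralGroup n) (hP : SylIn 2 P H)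
    (hy : y ∈ normalizer (P : Set G))
    (hc : ∀ N ≤ P, H ≤ normalizer (N : Set G) → cj y H ≤ normalizer (N : Set G) → N = ⊥) (hQ : pCore 2 H ≠ ⊥) :
    (Nat.card P = 4 ∨ Nat.card P = 8 ∨ Nat.card P = 16) ∧ ¬ IsPGroup 2 H ∧
    (Nonempty (H ⧸ oddCore H ≃* Multiplicative (ZMod 2) × Multiplicative (ZMod 2)) ∨
      Nonempty (H ⧸ oddCore H ≃* Equiv.Perm (Fin 4)) ∨
      Nonempty (H ⧸ oddCore H ≃* Equiv.Perm (Fin 4) × Multiplicative (ZMod 2))) := by
  obtain ⟨hi, h, h1, h2⟩ := dih_setup hn e hP.subgroupOf_top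
  have e0 := map_subgroupOf_eq_of_le hP.le
  have e1 := congrArg (map H.subtype) h1
  have e2 := congrArg (map H.subtype) h2
  rw [Subgroup.map_sup, ← cj_map_subtype, e0, ← MonoidHom.range_eq_map, range_subtype] at e1
  rw [map_inf _ _ _ H.subtype_injective, ← cj_map_subtype, e0] at e2
  have e3 : cj (h * y⁻¹) P = cj (h : G) P := by rw [← cj_cj, cj_eq_of_mem_normalizer (inv_mem hy)]
  have s := sims_core (g := h * y⁻¹) hP.pg (by
    rw [e3, e2, ← e0, relIndex_map_map_of_injective _ _ H.subtype_injective, hi])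
    (e3 ▸ e1) fun N l1 l2 l3 => hc N l1 l2 (by
      rwa [mul_inv_rev, inv_inv, ← cj_cj, cj_eq_of_mem (inv_mem h.2)] at l3)
  rw [e3, e2] at s
  have s' : SC (P.subgroupOf H) (pCore 2 H) ⊤ := SC.of_map H.subtype_injective (by
    rwa [e0, ← MonoidHom.range_eq_map, range_subtype])
  have : Group.IsSolvable H := by
    have := Classical.isSolvable_of_dihedral (topEquiv.trans e)
    have := Group.isSolvable_of_isSolvable_injective (f := (topEquiv (G := H ⧸ pCore 2 H)).symm.toMonoidHom)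
      (MulEquiv.injective _)
    have := (isPGroup_pCore 2 H).isNilpotent
    exact Group.isSolvable_of_ker_le_range (pCore 2 H).subtype (QuotientGroup.mk' (pCore 2 H)) (by simp)
  refine ⟨?_, fun k => ?_, s'.quot hP.subgroupOf_top hi h1 hQ⟩
  · have e4 := Solv.card_mul_relIndex (pCoreOf_top 2 H ▸ hP.subgroupOf_top.pCoreOf_le)
    obtain ⟨k, hk⟩ := (isPGroup_pCore 2 H).exists_card_eq
    have h8 := s'.card
    have h1 := (one_lt_card_iff_ne_bot _).2 hQ
    rw [hi, card_subgroupOf hP.le, hk] at e4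
    rw [hk] at h8 h1
    have k3 : k ≤ 3 := (Nat.pow_le_pow_iff_right one_lt_two).1 h8
    interval_cases k <;> omega
  · rw [pCore_eq_top k, relIndex_top_left] at hi
    omega

end Cfsg.Agent.Loc
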